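import Cfsg.Agent.ShortPres.Three.FourData
import Cfsg.Agent.CosetCert.SLThreeFour.Main
import Cfsg.Agent.CosetCert.Orbit
import Cfsg.Agent.GKKL.Derive
import Cfsg.Agent.Linear.Orders
import Cfsg.Agent.Linear.Transvection

/-!
Eight relators on two generators for `SL₃` over four elements.
-/

set_option autoImplicit false
set_option maxRecDepth 10000

namespace Cfsg.Agent.ShortPres.Three.Four

open Matrix Cfsg.Agent.Plane21 Cfsg.Agent.GKKL Cfsg.Agent.CosetCert

/-- The matrix of nine entries. -/
def Nine.toMat (m : Nine) : Matrix (Fin 3) (Fin 3) F4 :=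
  !![m.a00, m.a01, m.a02; m.a10, m.a11, m.a12; m.a20, m.a21, m.a22]

/-- The product. -/
def Nine.mul (m n : Nine) : Nine :=
  ⟨m.a00 * n.a00 + m.a01 * n.a10 + m.a02 * n.a20, m.a00 * n.a01 + m.a01 * n.a11 + m.a02 * n.a21,
    m.a00 * n.a02 + m.a01 * n.a12 + m.a02 * n.a22,
    m.a10 * n.a00 + m.a11 * n.a10 + m.a12 * n.a20, m.a10 * n.a01 + m.a11 * n.a11 + m.a12 * n.a21,
    m.a10 * n.a02 + m.a11 * n.a12 + m.a12 * n.a22,
    m.a20 * n.a00 + m.a21 * n.a10 + m.a22 * n.a20, m.a20 * n.a01 + m.a21 * n.a11 + m.a22 * n.a21,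
    m.a20 * n.a02 + m.a21 * n.a12 + m.a22 * n.a22⟩

/-- The identity. -/
def Nine.one : Nine := ⟨e1, e0, e0, e0, e1, e0, e0, e0, e1⟩

/-- Nine entries from a function. -/
def Nine.ofFun (f : Fin 3 → Fin 3 → F4) : Nine :=
  ⟨f 0 0, f 0 1, f 0 2, f 1 0, f 1 1, f 1 2, f 2 0, f 2 1, f 2 2⟩

theorem Nine.toMat_mul (m n : Nine) : (m.mul n).toMat = m.toMat * n.toMat := by
  ext i j
  fin_cases i <;> fin_cases j <;> simp [Nine.toMat, Nine.mul, Matrix.mul_apply, Fin.sum_univ_three]

theorem Nine.toMat_one : Nine.one.toMat = 1 := by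
  ext i j
  fin_cases i <;> fin_cases j <;> rfl

theorem Nine.toMat_ofFun (f : Fin 3 → Fin 3 → F4) : (Nine.ofFun f).toMat = Matrix.of f := by
  ext i j
  fin_cases i <;> fin_cases j <;> rfl

/-- The first generator. -/
def genA : SpecialLinearGroup (Fin 3) F4 :=
  ⟨matA.toMat, by rw [Nine.toMat, Matrix.det_fin_three]; decide⟩

/-- The second generator. -/
def genB : SpecialLinearGroup (Fin 3) F4 :=
  ⟨matB.toMat, by rw [Nine.toMat, Matrix.det_fin_three]; decide⟩

/-- The two generators. -/
def gens : Fin 2 → SpecialLinearGroup (Fin 3) F4 := ![genA, genB]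

theorem inv_of_mul {A : SpecialLinearGroup (Fin 3) F4} {m n : Nine} (hA : A.1 = m.toMat)
    (h : m.mul n = Nine.one) : (A⁻¹).1 = n.toMat := by
  have e : n.toMat.det = 1 := by
    have := congrArg (fun x : Nine => x.toMat.det) h
    simp only [Nine.toMat_mul, Nine.toMat_one, det_mul, det_one, ← hA, A.2, one_mul] at this
    exact this
  have : A * ⟨n.toMat, e⟩ = 1 := Subtype.ext (by
    show A.1 * n.toMat = 1
    rw [hA, ← Nine.toMat_mul, h, Nine.toMat_one])
  rw [inv_eq_of_mul_eq_one_right this]

/-- The value of a signed letter. -/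
def letter : Fin 2 × Bool → Nine
  | (i, s) => if i = 0 then (if s then matA else matAinv) else matB

theorem toMat_letter (p : Fin 2 × Bool) :
    (cond p.2 (gens p.1) (gens p.1)⁻¹).1 = (letter p).toMat := by
  rcases p with ⟨i, _ | _⟩ <;> fin_cases i
  · exact inv_of_mul (A := genA) (m := matA) rfl (by decide)
  · exact inv_of_mul (A := genB) (m := matB) rfl (by decide)
  · rfl
  · rfl

/-- The value of a word. -/
def evalWord : List (Fin 2 × Bool) → Nine
  | [] => Nine.one
  | p :: l => (letter p).mul (evalWord l)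

theorem toMat_evalWord (l : List (Fin 2 × Bool)) :
    ((l.map fun p => cond p.2 (gens p.1) (gens p.1)⁻¹).prod).1 = (evalWord l).toMat := by
  induction l with
  | nil => exact Nine.toMat_one.symm
  | cons p l ih =>
    rw [List.map_cons, List.prod_cons, evalWord, Nine.toMat_mul, ← toMat_letter, ← ih]
    rfl

theorem relators_hold : ∀ r ∈ SLThreeFour.relList, FreeGroup.lift gens r = 1 := by
  have h : ∀ r ∈ SLThreeFour.relList, evalWord r.toWord = Nine.one := by decide +kernel
  intro r hr
  apply Subtype.ext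
  conv_lhs => rw [← FreeGroup.mk_toWord (x := r)]
  rw [FreeGroup.lift_mk, toMat_evalWord, h r hr]
  exact Nine.toMat_one

/-- The letters of the table. -/
def letterOf : ℕ → Nine
  | 0 => matA
  | 1 => matAinv
  | 2 => matB
  | _ => Nine.one

/-- The table of values. -/
def val (k : ℕ) : Nine := (table.getD k (0, 3, Nine.one)).2.2

/-- The parents. -/
def parent (k : ℕ) : ℕ := (table.getD k (0, 3, Nine.one)).1

/-- The letters. -/
def lett (k : ℕ) : ℕ := (table.getD k (0, 3, Nine.one)).2.1

theorem table_mem (k : ℕ) (hk : k < table.length) :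
    ∃ X ∈ Subgroup.closure (Set.range gens), X.1 = (val k).toMat := by
  have hstep : ∀ k ∈ List.range table.length, (k = 0 ∧ val k = Nine.one) ∨
      (parent k < k ∧ lett k < 3 ∧ val k = (val (parent k)).mul (letterOf (lett k))) := by decide +kernel
  induction k using Nat.strong_induction_on with
  | _ k ih =>
    rcases hstep k (List.mem_range.2 hk) with ⟨-, h⟩ | ⟨h1, h2, h3⟩
    · exact ⟨1, one_mem _, by rw [h, Nine.toMat_one]; rfl⟩
    · obtain ⟨X, hX, e⟩ := ih (parent k) h1 (lt_trans h1 hk)
      have hA : genA ∈ Subgroup.closure (Set.range gens) := Subgroup.subset_closure ⟨0, rfl⟩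
      have hB : genB ∈ Subgroup.closure (Set.range gens) := Subgroup.subset_closure ⟨1, rfl⟩
      obtain ⟨Y, hY, eY⟩ : ∃ Y ∈ Subgroup.closure (Set.range gens), Y.1 = (letterOf (lett k)).toMat := by
        rcases (show lett k = 0 ∨ lett k = 1 ∨ lett k = 2 by omega) with e | e | e <;> rw [e]
        · exact ⟨genA, hA, rfl⟩
        · exact ⟨genA⁻¹, inv_mem hA, inv_of_mul (m := matA) rfl (by decide)⟩
        · exact ⟨genB, hB, rfl⟩
      exact ⟨X * Y, mul_mem hX hY, by rw [h3, Nine.toMat_mul, ← e, ← eY]; rfl⟩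

theorem gens_generate : Subgroup.closure (Set.range gens) = ⊤ := by
  have h : ∀ i j : Fin 3, i ≠ j → ∀ t : F4, t ≠ 0 → ∃ k ∈ List.range table.length,
      val k = Nine.ofFun (fun a b => if a = i ∧ b = j then t else if a = b then 1 else 0) := by decide +kernel
  refine Cfsg.Agent.Linear.eq_top_of_transvection_mem _ fun i j hij t => ?_
  rcases eq_or_ne t 0 with rfl | ht
  · rw [show SpecialLinearGroup.transvection hij (0 : F4) = 1 from
      Subtype.ext (Matrix.transvection_zero i j)]
    exact one_mem _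
  obtain ⟨k, hk, e⟩ := h i j hij t ht
  obtain ⟨X, hX, eX⟩ := table_mem k (List.mem_range.1 hk)
  have : SpecialLinearGroup.transvection hij t = X := Subtype.ext (by
    rw [eX, e, Nine.toMat_ofFun, SpecialLinearGroup.transvection_coe]
    ext a b
    by_cases hab : a = i ∧ b = j
    · obtain ⟨rfl, rfl⟩ := hab
      simp [Matrix.transvection, hij]
    · simp only [Matrix.transvection, Matrix.add_apply, Matrix.of_apply, if_neg hab,
        Matrix.one_apply]
      have hne : ¬(i = a ∧ j = b) := fun h' => hab ⟨h'.1.symm, h'.2.symm⟩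
      simp [Matrix.single_apply, hne])
  rw [this]
  exact hX

theorem natCard_target : Nat.card (SpecialLinearGroup (Fin 3) F4) = 60480 := by
  have h := Cfsg.Agent.Linear.card_SL_mul (F := F4) 3
  rw [Fin.prod_univ_three, F4.card_F4] at h
  simp only [Fin.coe_ofNat_eq_mod] at h
  norm_num at h
  rw [Nat.card_eq_fintype_card]
  omega

/-- The presentation over the model field. -/
theorem hasPres_model : HasPres gens 8 := by
  classical
  let R : Finset (FreeGroup (Fin 2)) := SLThreeFour.relList.toFinset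
  have hR : (↑R : Set (FreeGroup (Fin 2))) = {r | r ∈ SLThreeFour.relList} := by ext; simp [R]
  have htrue : ∀ r ∈ (↑R : Set (FreeGroup (Fin 2))), FreeGroup.lift gens r = 1 :=
    fun r hr => relators_hold r (by simpa [R] using hr)
  let E : PresentedGroup (↑R : Set (FreeGroup (Fin 2))) →* SpecialLinearGroup (Fin 3) F4 :=
    PresentedGroup.toGroup htrue
  have hsurj : Function.Surjective E := by
    refine MonoidHom.range_eq_top.1 (top_le_iff.1 (gens_generate ▸ (Subgroup.closure_le _).2 ?_))
    rintro _ ⟨i, rfl⟩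
    exact ⟨PresentedGroup.of i, PresentedGroup.toGroup.of htrue⟩
  have hval : SLThreeFour.data.Valid (↑R : Set (FreeGroup (Fin 2))) {r | r ∈ SLThreeFour.gensList} :=
    hR ▸ SLThreeFour.valid
  have hidx := index_eq hval SLThreeFour.word_letters SLThreeFour.base_letters
  set H := (Subgroup.closure ({r | r ∈ SLThreeFour.gensList} : Set (FreeGroup (Fin 2)))).map
    (PresentedGroup.mk (↑R : Set (FreeGroup (Fin 2))))
  have hN : SLThreeFour.data.N = 2880 := rfl
  rw [hN] at hidx
  set a := PresentedGroup.mk (↑R : Set (FreeGroup (Fin 2))) SLThreeFour.ga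
  have hH : H = Subgroup.zpowers a := by
    show (Subgroup.closure _).map _ = _
    rw [show ({r | r ∈ SLThreeFour.gensList} : Set (FreeGroup (Fin 2))) = {SLThreeFour.ga} from by
      ext; simp [SLThreeFour.gensList], MonoidHom.map_closure, Set.image_singleton,
      Subgroup.zpowers_eq_closure]
  have ha : a ^ 21 = 1 := by
    rw [← map_pow]
    exact PresentedGroup.one_of_mem (hR ▸ (show SLThreeFour.ga ^ 21 ∈ SLThreeFour.relList by decide +kernel))
  have hdvd : Nat.card H ∣ 21 := by
    rw [hH, Nat.card_zpowers]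
    exact orderOf_dvd_of_pow_eq_one ha
  have hcard := H.card_mul_index
  rw [hidx] at hcard
  have hle : Nat.card H ≤ 21 := Nat.le_of_dvd (by norm_num) hdvd
  have hne : Nat.card H ≠ 0 := fun e => by rw [e] at hdvd; simp at hdvd
  haveI : Finite (PresentedGroup (↑R : Set (FreeGroup (Fin 2)))) :=
    Nat.finite_of_card_ne_zero (by rw [← hcard]; simp [hne])
  have hbij : Function.Bijective E := hsurj.bijective_of_nat_card_le (by
    rw [natCard_target, ← hcard]
    omega)
  exact ⟨R, (List.toFinset_card_le _).trans (by decide), MulEquiv.ofBijective E hbij,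
    fun i => PresentedGroup.toGroup.of htrue⟩

/-- An isomorphism of fields gives one of the special linear groups. -/
def slEquiv {R S : Type*} [CommRing R] [CommRing S] (e : R ≃+* S) :
    SpecialLinearGroup (Fin 3) R ≃* SpecialLinearGroup (Fin 3) S :=
  MonoidHom.toMulEquiv (SpecialLinearGroup.map e.toRingHom) (SpecialLinearGroup.map e.symm.toRingHom)
    (by ext A i j; exact e.symm_apply_apply _) (by ext A i j; exact e.apply_symm_apply _)

/-- Eight relators in order four. -/
theorem sl_three_eight {F : Type*} [Field F] [Finite F] (hq : Nat.card F = 4) :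
    ∃ w : Fin 2 → SpecialLinearGroup (Fin 3) F, HasPres w 8 := by
  classical
  haveI := Fintype.ofFinite F
  let φ := slEquiv (FiniteField.ringEquivOfCardEq (K := F4) (K' := F)
    (by rw [F4.card_F4, ← hq, Nat.card_eq_fintype_card]))
  obtain ⟨R, hc, e, he⟩ := hasPres_model
  exact ⟨fun i => φ (gens i), R, hc, e.trans φ, fun i => by simp [he]⟩

end Cfsg.Agent.ShortPres.Three.Four
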