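import Cfsg.Agent.ShortPres.Three.Main
import Cfsg.Agent.ShortPres.Tools

/-!
Short presentations of `SL₃`.
-/

set_option autoImplicit false

namespace Cfsg.Agent.ShortPres.Three

open Matrix Cfsg.Agent.GKKL

variable {F : Type*} [Field F] [Finite F]

/-- The cyclic symmetry. -/
def cw : FreeGroup (Fin 3) := FreeGroup.of 0
/-- The root element. -/
def uw : FreeGroup (Fin 3) := FreeGroup.of 1
/-- The torus element. -/
def hw : FreeGroup (Fin 3) := FreeGroup.of 2

/-- A torus word. -/
def φw (i : Fin 3) (k : ℕ) : FreeGroup (Fin 3) := MulAut.conj (cw ^ i.val) (hw ^ k)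

/-- The second seed. -/
def vw : FreeGroup (Fin 3) :=
  cw * uw * cw⁻¹ * (cw ^ 2 * uw * (cw ^ 2)⁻¹) * (cw * uw * cw⁻¹)⁻¹ * (cw ^ 2 * uw * (cw ^ 2)⁻¹)⁻¹

/-- A root word. -/
def Xw (i j : Fin 3) (k : ℕ) : FreeGroup (Fin 3) :=
  if j = i + 1 then MulAut.conj (cw ^ i.val) (MulAut.conj (φw 0 k * φw 1 k) uw)
  else if i = j + 1 then MulAut.conj (cw ^ j.val) (MulAut.conj (φw 1 k) vw)
  else 1

variable {P : Type*} [Group P] {S : Seed F P} {u : P}

/-- A valuation of the words. -/
structure Val (S : Seed F P) (u : P) (g : FreeGroup (Fin 3) →* P) : Prop where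
  map_c : g cw = S.c
  map_u : g uw = u
  map_h : g hw = S.h

variable {g : FreeGroup (Fin 3) →* P}

theorem val_φ (V : Val S u g) (i : Fin 3) (k : ℕ) : g (φw i k) = S.φ i (S.ξ ^ k) := by
  rw [φw, map_conj', map_pow g cw, map_pow g hw, V.map_c, V.map_h, S.φ_apply, map_pow S.φ₀, S.φ₀_gen]

theorem val_v (V : Val S u g) (U : RootSeed S u) : g vw = U.v := by
  simp only [vw, RootSeed.v, map_mul, map_inv, map_pow, V.map_c, V.map_u]

theorem val_X (V : Val S u g) (U : RootSeed S u) (i j : Fin 3) (k : ℕ) :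
    g (Xw i j k) = U.X i j (S.ξ ^ k) := by
  simp only [Xw, RootSeed.X]
  split_ifs
  · rw [map_conj', map_conj', map_mul, val_φ V, val_φ V, map_pow, V.map_c, V.map_u, U.torus.τ_apply]
    simp
  · rw [map_conj', map_conj', val_φ V, map_pow, V.map_c, val_v V U, U.torus.τ_apply]
    simp
  · exact map_one _

theorem val_X_zero (V : Val S u g) (U : RootSeed S u) (i j : Fin 3) : g (Xw i j 0) = U.X i j 1 := by
  rw [val_X V U, pow_zero]

/-- The data entering the relators shared by all cases. -/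
structure Choices (F : Type*) [Field F] where
  p : ℕ
  N : ℕ
  cf : ℕ → ℕ
  d : ℕ
  hword : FreeGroup ({a : Fin 3 × Fin 3 // a.1 ≠ a.2} × ℕ)
  cword : FreeGroup ({a : Fin 3 × Fin 3 // a.1 ≠ a.2} × ℕ)

/-- The shared relators. -/
def common (C : Choices F) : List (FreeGroup (Fin 3)) :=
  [cw ^ 3, uw ^ C.p, hw ^ C.N, commW (φw 0 1) (φw 1 1), φw 0 1 * φw 1 1 * φw 2 1,
    commW (φw 0 1 * φw 1 1 ^ 2) uw, commW (φw 0 1 * φw 1 1 ^ 2) vw,
    ((List.range C.d).map fun i => Xw 0 1 i ^ C.cf i).prod,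
    eqW hw (FreeGroup.lift (fun a => Xw a.1.1.1 a.1.1.2 a.2) C.hword),
    eqW cw (FreeGroup.lift (fun a => Xw a.1.1.1 a.1.1.2 a.2) C.cword)]

/-- The three relators at the value one. -/
def baseExtra : List (FreeGroup (Fin 3)) :=
  [commW (Xw 0 1 0) (Xw 0 2 0), commW (Xw 0 2 0) (Xw 1 2 0),
    eqW (Xw 1 0 0 * Xw 0 2 0) (Xw 1 2 0 * Xw 0 2 0 * Xw 1 0 0)]

/-- The five relators of one pair of exponents. -/
def pairRels (i j : ℕ) : List (FreeGroup (Fin 3)) :=
  [commW (Xw 0 1 i) (Xw 0 1 j), commW (Xw 0 1 i) (Xw 0 2 j), commW (Xw 0 2 i) (Xw 1 2 j),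
    eqW (Xw 1 2 i * Xw 2 0 j) (Xw 1 0 (i + j) * Xw 2 0 j * Xw 1 2 i),
    eqW (Xw 1 0 i * Xw 0 2 j) (Xw 1 2 (i + j) * Xw 0 2 j * Xw 1 0 i)]

/-- All values, in order four. -/
def allExtra : List (FreeGroup (Fin 3)) :=
  pairRels 0 0 ++ pairRels 0 1 ++ pairRels 0 2 ++ pairRels 1 0 ++ pairRels 1 1 ++ pairRels 1 2 ++
    pairRels 2 0 ++ pairRels 2 1 ++ pairRels 2 2

theorem closure_words (V : Val S u g) (U : RootSeed S u)
    (x : FreeGroup ({a : Fin 3 × Fin 3 // a.1 ≠ a.2} × ℕ)) :
    g (FreeGroup.lift (fun a => Xw a.1.1.1 a.1.1.2 a.2) x) ∈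
      Subgroup.closure {x | ∃ i j, i ≠ j ∧ ∃ s, U.X i j s = x} := by
  induction x using FreeGroup.induction_on with
  | C1 => simp [Subgroup.one_mem]
  | of a =>
    rw [FreeGroup.lift_apply_of, val_X V U]
    exact Subgroup.subset_closure ⟨a.1.1.1, a.1.1.2, a.1.2, _, rfl⟩
  | inv_of a ha => rw [map_inv, map_inv]; exact Subgroup.inv_mem _ ha
  | mul a b ha hb => rw [map_mul, map_mul]; exact Subgroup.mul_mem _ ha hb

/-- Recognition from the relators, given the case analysis `hfull`. -/
theorem recognise {p : ℕ} (C : Choices F) (extra : List (FreeGroup (Fin 3))) (hp : C.p = p)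
    (hN : C.N = Nat.card Fˣ) (ξ : Fˣ) (hξ : ∀ a : Fˣ, a ∈ Subgroup.zpowers ξ)
    (hrel : ∀ x ∈ common C ++ extra, g x = 1)
    (hfull : ∀ (S : Seed F P) (u : P) (U : RootSeed S u), S.ξ = ξ → Val S u g → U.X 0 1 1 ^ p = 1 →
      ((List.range C.d).map fun i => U.X 0 1 (S.ξ ^ i) ^ C.cf i).prod = 1 →
      ∃ Y, Ext U Y ∧ Full U)
    (hgen : Subgroup.closure {g cw, g hw, g uw} = ⊤)
    (E : P →* SpecialLinearGroup (Fin 3) F) (hEc : E (g cw) = rotSL) (hEh : E (g hw) = diag01 ξ)
    (hEu : E (g uw) = u0 F) : Function.Bijective E := by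
  have hc : ∀ x ∈ common C, g x = 1 := fun x hx => hrel x (List.mem_append_left _ hx)
  let S : Seed F P :=
    { ξ := ξ, hξ := hξ, c := g cw, h := g hw
      hc := by rw [← map_pow]; exact hc _ (by simp [common])
      hN := by rw [← map_pow, ← hN]; exact hc _ (by simp [common]) }
  have V : Val S (g uw) g := ⟨rfl, rfl, rfl⟩
  have h1 : ∀ i, g (φw i 1) = S.φ i S.ξ := fun i => by rw [val_φ V, pow_one]
  have hT : TorusRels S :=
    { comm := by
        have := (commW_iff g _ _).1 (hc (commW (φw 0 1) (φw 1 1)) (by simp [common]))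
        rwa [h1, h1] at this
      prod := by
        have := hc (φw 0 1 * φw 1 1 * φw 2 1) (by simp [common])
        rwa [map_mul, map_mul, h1, h1, h1] at this }
  have hU : RootSeed S (g uw) :=
    { torus := hT
      ker₁ := by
        have := (commW_iff g _ _).1 (hc (commW (φw 0 1 * φw 1 1 ^ 2) uw) (by simp [common]))
        rwa [map_mul, map_pow, h1, h1] at this
      ker₂ := by
        have := (commW_iff g _ _).1 (hc (commW (φw 0 1 * φw 1 1 ^ 2) vw) (by simp [common]))
        rw [map_mul, map_pow, h1, h1] at this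
        simpa only [vw, map_mul, map_inv, map_pow] using this }
  obtain ⟨Y, hY, hF⟩ := hfull S (g uw) hU rfl V
    (by rw [hU.X_seed, ← map_pow, ← hp]; exact hc _ (by simp [common]))
    (by
      have := hc (((List.range C.d).map fun i => Xw 0 1 i ^ C.cf i).prod) (by simp [common])
      rw [map_list_prod, List.map_map] at this
      refine Eq.trans (congrArg List.prod (List.map_congr_left fun i _ => ?_)) this
      simp only [Function.comp_apply, map_pow, val_X V hU])
  refine bijective_eval hU hY hF ⟨hEc, hEh, hEu⟩ ?_ ?_ ?_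
  · have := (eqW_iff g hw _).1 (hc (eqW hw (FreeGroup.lift (fun a => Xw a.1.1.1 a.1.1.2 a.2) C.hword))
      (by simp [common]))
    show g hw ∈ _
    rw [this]
    exact closure_words V hU _
  · have := (eqW_iff g cw _).1 (hc (eqW cw (FreeGroup.lift (fun a => Xw a.1.1.1 a.1.1.2 a.2) C.cword))
      (by simp [common]))
    show g cw ∈ _
    rw [this]
    exact closure_words V hU _
  · exact hgen

/-- A presentation from the two halves. -/
theorem pres_of (p : ℕ) [Fact p.Prime] [CharP F p] [Algebra (ZMod p) F] (ξ : Fˣ)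
    (hξ : ∀ a : Fˣ, a ∈ Subgroup.zpowers ξ) (s : Polynomial (ZMod p)) (d : ℕ) (hd : s.natDegree < d)
    (hs : Polynomial.aeval (ξ : F) s = 0) (extra : List (FreeGroup (Fin 3))) {r : ℕ}
    (hr : 10 + extra.length ≤ r)
    (htarget : ∀ g : FreeGroup (Fin 3) →* SpecialLinearGroup (Fin 3) F,
      Val (seed0 ξ hξ) (u0 F) g → ∀ x ∈ extra, g x = 1)
    (hfull : ∀ {P : Type} [Group P] (g : FreeGroup (Fin 3) →* P) (S : Seed F P) (u : P)
      (U : RootSeed S u), (∀ x ∈ extra, g x = 1) → S.ξ = ξ → Val S u g → U.X 0 1 1 ^ p = 1 →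
      ((List.range d).map fun i => U.X 0 1 (S.ξ ^ i) ^ (s.coeff i).val).prod = 1 →
      ∃ Y, Ext U Y ∧ Full U) :
    ∃ w : Fin 3 → SpecialLinearGroup (Fin 3) F, HasPres w r := by
  classical
  let T : ({a : Fin 3 × Fin 3 // a.1 ≠ a.2} × ℕ) → SpecialLinearGroup (Fin 3) F :=
    fun a => SpecialLinearGroup.transvection a.1.2 ((ξ : F) ^ a.2)
  have hT : ∀ A, ∃ x, FreeGroup.lift T x = A := fun A => by
    induction A using Cfsg.Agent.Linear.transvection_induction with
    | htransvec i j h t =>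
      rcases eq_or_ne t 0 with rfl | ht
      · exact ⟨1, (map_one _).trans (Subtype.ext (Matrix.transvection_zero i j).symm)⟩
      obtain ⟨k, hk⟩ := (isOfFinOrder_of_finite ξ).mem_powers_iff_mem_zpowers.2 (hξ (Units.mk0 t ht))
      refine ⟨FreeGroup.of (⟨(i, j), h⟩, k), ?_⟩
      rw [FreeGroup.lift_apply_of]
      show SpecialLinearGroup.transvection h ((ξ : F) ^ k) = _
      rw [← Units.val_pow_eq_pow_val]
      exact congrArg _ (congrArg Units.val hk)
    | hmul A B hA hB =>
      obtain ⟨x, rfl⟩ := hA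
      obtain ⟨y, rfl⟩ := hB
      exact ⟨x * y, map_mul _ x y⟩
  obtain ⟨cword, hcword⟩ := hT rotSL
  obtain ⟨hword, hhword⟩ := hT (diag01 ξ)
  let C : Choices F := ⟨p, Nat.card Fˣ, fun i => (s.coeff i).val, d, hword, cword⟩
  let R : Finset (FreeGroup (Fin 3)) := (common C ++ extra).toFinset
  let w : Fin 3 → SpecialLinearGroup (Fin 3) F := ![rotSL, u0 F, diag01 ξ]
  have V0 : Val (seed0 ξ hξ) (u0 F) (FreeGroup.lift w) :=
    ⟨by simp [cw, w, seed0], by simp [uw, w], by simp [hw, w, seed0]⟩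
  have hword' : ∀ x, FreeGroup.lift w (FreeGroup.lift (fun a => Xw a.1.1.1 a.1.1.2 a.2) x) =
      FreeGroup.lift T x := fun x => by
    refine DFunLike.congr_fun (FreeGroup.ext_hom ((FreeGroup.lift w).comp (FreeGroup.lift _))
      (FreeGroup.lift T) fun a => ?_) x
    simp only [MonoidHom.comp_apply, FreeGroup.lift_apply_of]
    rw [val_X V0 rootSeed0, X_seed0 a.1.2]
    simp [T, seed0]
  have htrue : ∀ ρ ∈ (↑R : Set (FreeGroup (Fin 3))), FreeGroup.lift w ρ = 1 := by
    intro ρ hρ
    simp only [R, Finset.mem_coe, List.mem_toFinset, List.mem_append] at hρ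
    rcases hρ with hρ | hρ
    · have hh : ∀ i, FreeGroup.lift w (φw i 1) = (seed0 ξ hξ).φ i ξ := fun i => by
        rw [val_φ V0, pow_one]; rfl
      simp only [common, List.mem_cons, List.not_mem_nil, or_false] at hρ
      rcases hρ with rfl | rfl | rfl | rfl | rfl | rfl | rfl | rfl | rfl | rfl
      · rw [map_pow, V0.map_c]; exact (seed0 ξ hξ).hc
      · rw [map_pow, V0.map_u]; exact u0_pow p
      · rw [map_pow, V0.map_h]; exact (seed0 ξ hξ).hN
      · rw [commW_iff, hh, hh]; exact torusRels0.comm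
      · rw [map_mul, map_mul, hh, hh, hh]; exact torusRels0.prod
      · rw [commW_iff, map_mul, map_pow, hh, hh, V0.map_u]; exact (rootSeed0 (ξ := ξ) (hξ := hξ)).ker₁
      · rw [commW_iff, map_mul, map_pow, hh, hh, val_v V0 rootSeed0]
        exact (rootSeed0 (ξ := ξ) (hξ := hξ)).ker₂
      · rw [map_list_prod, List.map_map]
        refine Eq.trans (congrArg List.prod (List.map_congr_left fun i _ => ?_))
          (sum_rel0 (ξ := ξ) (hξ := hξ) p s d hd hs)
        simp only [Function.comp_apply, map_pow, val_X V0 rootSeed0]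
        rfl
      · rw [eqW_iff, V0.map_h, hword', hhword]; rfl
      · rw [eqW_iff, V0.map_c, hword', hcword]; rfl
    · exact htarget _ V0 ρ hρ
  let g := PresentedGroup.mk (↑R : Set (FreeGroup (Fin 3)))
  let E : PresentedGroup (↑R : Set (FreeGroup (Fin 3))) →* SpecialLinearGroup (Fin 3) F :=
    PresentedGroup.toGroup htrue
  have hrel : ∀ x ∈ common C ++ extra, g x = 1 := fun x hx =>
    PresentedGroup.one_of_mem (Finset.mem_coe.2 (List.mem_toFinset.2 hx))
  have hbij : Function.Bijective E := recognise (g := g) C extra rfl rfl ξ hξ hrel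
    (fun S u U hS V hu hsum => hfull g S u U (fun x hx => hrel x (List.mem_append_right _ hx)) hS V hu hsum)
    (by
      rw [eq_top_iff, ← PresentedGroup.closure_range_of, Subgroup.closure_le]
      rintro _ ⟨i, rfl⟩
      refine Subgroup.subset_closure ?_
      fin_cases i
      · exact Or.inl rfl
      · exact Or.inr (Or.inr rfl)
      · exact Or.inr (Or.inl rfl))
    E (PresentedGroup.toGroup.of htrue) (PresentedGroup.toGroup.of htrue) (PresentedGroup.toGroup.of htrue)
  refine ⟨w, R, (List.toFinset_card_le _).trans ?_, MulEquiv.ofBijective E hbij,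
    fun i => PresentedGroup.toGroup.of htrue⟩
  simp only [List.length_append, common, List.length_cons, List.length_nil]
  omega

/-- Thirteen relators outside order four. -/
theorem sl_three (hq : Nat.card F ≠ 4) : ∃ w : Fin 3 → SpecialLinearGroup (Fin 3) F, HasPres w 13 := by
  classical
  obtain ⟨p, hchar⟩ := CharP.exists F
  haveI : Fact p.Prime := ⟨CharP.char_is_prime F p⟩
  letI : Algebra (ZMod p) F := ZMod.algebra F p
  obtain ⟨ξ, hξ⟩ := IsCyclic.exists_generator (α := Fˣ)
  obtain ⟨c, hc1, hc2⟩ := exists_span_poly p hq ξ hξ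
  set s : Polynomial (ZMod p) := Polynomial.X - c.comp (Polynomial.X ^ 3) with hsdef
  have haeval : ∀ ν : F, Polynomial.aeval ν s = ν - Polynomial.aeval (ν ^ 3) c := fun ν => by
    simp [s, Polynomial.aeval_comp]
  set d := s.natDegree + 2 with hddef
  refine pres_of p ξ hξ s d (by omega) (by rw [haeval, hc1, sub_self]) baseExtra (by simp [baseExtra]) ?_ ?_
  · intro g V x hx
    have hF := full0 (ξ := ξ) (hξ := hξ)
    simp only [baseExtra, List.mem_cons, List.not_mem_nil, or_false] at hx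
    rcases hx with rfl | rfl | rfl
    · rw [commW_iff, val_X_zero V rootSeed0, val_X_zero V rootSeed0]; exact hF.lines.row 1 1
    · rw [commW_iff, val_X_zero V rootSeed0, val_X_zero V rootSeed0]; exact hF.lines.col 1 1
    · rw [eqW_iff]
      simp only [map_mul, val_X_zero V rootSeed0]
      simpa using hF.st₂ 1 1
  · intro P _ g S u U hg hS V hu hsum
    have B : Base U :=
      { row := by
          have := (commW_iff g _ _).1 (hg (commW (Xw 0 1 0) (Xw 0 2 0)) (by simp [baseExtra]))
          rwa [val_X_zero V U, val_X_zero V U] at this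
        col := by
          have := (commW_iff g _ _).1 (hg (commW (Xw 0 2 0) (Xw 1 2 0)) (by simp [baseExtra]))
          rwa [val_X_zero V U, val_X_zero V U] at this
        st₂ := by
          have := (eqW_iff g _ _).1 (hg (eqW (Xw 1 0 0 * Xw 0 2 0) (Xw 1 2 0 * Xw 0 2 0 * Xw 1 0 0))
            (by simp [baseExtra]))
          simpa only [map_mul, val_X_zero V U] using this }
    -- the first root element of value `ξ` lies among the cubes
    set C := Subgroup.closure {x | ∃ t, U.X 0 1 (t ^ 3) = x}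
    have hgen : U.X 0 1 S.ξ ∈ C := by
      set f : ℕ → P := fun i => U.X 0 1 (S.ξ ^ i) ^ (s.coeff i).val
      have hf : ∀ i, i ≠ 1 → f i ∈ C := fun i hi => by
        by_cases h3 : 3 ∣ i
        · obtain ⟨j, rfl⟩ := h3
          have hm : U.X 0 1 (S.ξ ^ (3 * j)) ∈ C :=
            Subgroup.subset_closure ⟨S.ξ ^ j, by rw [← pow_mul, mul_comm]⟩
          exact pow_mem hm _
        · have : s.coeff i = 0 := by
            rw [hsdef, Polynomial.coeff_sub, Polynomial.coeff_X, if_neg (Ne.symm hi),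
              ← Polynomial.expand_eq_comp_X_pow, Polynomial.coeff_expand (by norm_num), if_neg h3, sub_zero]
          show U.X 0 1 (S.ξ ^ i) ^ (s.coeff i).val ∈ C
          rw [this, ZMod.val_zero, pow_zero]
          exact C.one_mem
      have hlist : List.range d = 0 :: 1 :: (List.range s.natDegree).map (fun i => i + 2) := by
        rw [hddef, List.range_succ_eq_map, List.range_succ_eq_map, List.map_cons, List.map_map]
        rfl
      rw [hlist, List.map_cons, List.map_cons, List.prod_cons, List.prod_cons] at hsum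
      have h0 : f 0 ∈ C := hf 0 (by norm_num)
      have hrest : ((List.map (fun i => i + 2) (List.range s.natDegree)).map f).prod ∈ C := by
        refine C.list_prod_mem fun x hx => ?_
        simp only [List.mem_map] at hx
        obtain ⟨_, ⟨i, -, rfl⟩, rfl⟩ := hx
        exact hf _ (by omega)
      have h1 : f 1 = U.X 0 1 S.ξ := by
        have : s.coeff 1 = 1 := by
          rw [hsdef, Polynomial.coeff_sub, Polynomial.coeff_X, if_pos rfl,
            ← Polynomial.expand_eq_comp_X_pow, Polynomial.coeff_expand (by norm_num), if_neg (by norm_num),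
            sub_zero]
        simp [f, this, ZMod.val_one]
      have e : f 1 = (f 0)⁻¹ * ((List.map (fun i => i + 2) (List.range s.natDegree)).map f).prod⁻¹ := by
        rw [eq_inv_mul_iff_mul_eq, eq_inv_iff_mul_eq_one, mul_assoc]
        exact hsum
      rw [← h1, e]
      exact C.mul_mem (C.inv_mem h0) (C.inv_mem hrest)
    have hself := B.self hgen
    obtain ⟨Y, hYadd, hYeq⟩ := exists_additive p S.hξ (fun t => U.X 0 1 t)
      (U.torus.τ ![S.ξ, 1, S.ξ⁻¹]) (fun t => by rw [← MulAut.conj_apply, Base.scale01])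
      hself hu s d (by omega)
      (fun (ν : F) hν h => by
        rw [haeval, sub_eq_zero] at h
        rw [hS]
        exact hc2 ν hν h.symm) hsum
    have hY : Ext U Y := ⟨hYadd, hYeq⟩
    exact ⟨Y, hY, B.full hq hY (B.lines hq hY hself)⟩

/-- Fifty-five relators in order four. -/
theorem sl_three_four (hq : Nat.card F = 4) : ∃ w : Fin 3 → SpecialLinearGroup (Fin 3) F, HasPres w 55 := by
  classical
  obtain ⟨p, hchar⟩ := CharP.exists F
  haveI : Fact p.Prime := ⟨CharP.char_is_prime F p⟩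
  letI : Algebra (ZMod p) F := ZMod.algebra F p
  obtain ⟨ξ, hξ⟩ := IsCyclic.exists_generator (α := Fˣ)
  set s := minpoly (ZMod p) (ξ : F)
  have hN : Nat.card Fˣ = 3 := by rw [Nat.card_units, hq]
  refine pres_of p ξ hξ s (s.natDegree + 1) (by omega) (minpoly.aeval _ _) allExtra
    (by simp [allExtra, pairRels]) ?_ ?_
  · intro g V x hx
    have hF := full0 (ξ := ξ) (hξ := hξ)
    have key : ∀ i j, ∀ x ∈ pairRels i j, g x = 1 := fun i j x hx => by
      simp only [pairRels, List.mem_cons, List.not_mem_nil, or_false] at hx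
      rcases hx with rfl | rfl | rfl | rfl | rfl
      · rw [commW_iff, val_X V rootSeed0, val_X V rootSeed0]; exact hF.lines.self _ _
      · rw [commW_iff, val_X V rootSeed0, val_X V rootSeed0]; exact hF.lines.row _ _
      · rw [commW_iff, val_X V rootSeed0, val_X V rootSeed0]; exact hF.lines.col _ _
      · rw [eqW_iff]
        simp only [map_mul, val_X V rootSeed0, pow_add]
        exact hF.st₁ _ _
      · rw [eqW_iff]
        simp only [map_mul, val_X V rootSeed0, pow_add]
        exact hF.st₂ _ _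
    simp only [allExtra, List.mem_append, or_assoc] at hx
    rcases hx with h | h | h | h | h | h | h | h | h <;> exact key _ _ x h
  · intro P _ g S u U hg hS V hu hsum
    have hpow : ∀ a : Fˣ, ∃ i, (i = 0 ∨ i = 1 ∨ i = 2) ∧ a = S.ξ ^ i := fun a => by
      obtain ⟨i, rfl⟩ := (isOfFinOrder_of_finite S.ξ).mem_powers_iff_mem_zpowers.2 (S.hξ a)
      refine ⟨i % 3, by omega, ?_⟩
      show S.ξ ^ i = _
      rw [← hN, pow_mod_natCard]
    have hmem : ∀ i j, (i = 0 ∨ i = 1 ∨ i = 2) → (j = 0 ∨ j = 1 ∨ j = 2) → ∀ x ∈ pairRels i j, g x = 1 := by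
      intro i j hi hj x hx
      refine hg x ?_
      simp only [allExtra, List.mem_append, or_assoc]
      rcases hi with rfl | rfl | rfl <;> rcases hj with rfl | rfl | rfl <;> simp [hx]
    have L : Lines U := by
      refine ⟨fun a b => ?_, fun a b => ?_, fun a b => ?_⟩ <;>
        obtain ⟨i, hi, rfl⟩ := hpow a <;> obtain ⟨j, hj, rfl⟩ := hpow b
      · have := (commW_iff g _ _).1 (hmem i j hi hj (commW (Xw 0 1 i) (Xw 0 1 j)) (by simp [pairRels]))
        rwa [val_X V U, val_X V U] at this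
      · have := (commW_iff g _ _).1 (hmem i j hi hj (commW (Xw 0 1 i) (Xw 0 2 j)) (by simp [pairRels]))
        rwa [val_X V U, val_X V U] at this
      · have := (commW_iff g _ _).1 (hmem i j hi hj (commW (Xw 0 2 i) (Xw 1 2 j)) (by simp [pairRels]))
        rwa [val_X V U, val_X V U] at this
    obtain ⟨Y, hYadd, hYeq⟩ := exists_additive p S.hξ (fun t => U.X 0 1 t)
      (U.torus.τ ![S.ξ, 1, S.ξ⁻¹]) (fun t => by rw [← MulAut.conj_apply, Base.scale01])
      L.self hu s (s.natDegree + 1) (by omega) (fun ν _ h => by rw [hS]; exact h) hsum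
    refine ⟨Y, ⟨hYadd, hYeq⟩, L, fun a b => ?_, fun a b => ?_⟩ <;>
      obtain ⟨i, hi, rfl⟩ := hpow a <;> obtain ⟨j, hj, rfl⟩ := hpow b
    · have := (eqW_iff g _ _).1 (hmem i j hi hj
        (eqW (Xw 1 2 i * Xw 2 0 j) (Xw 1 0 (i + j) * Xw 2 0 j * Xw 1 2 i)) (by simp [pairRels]))
      simpa only [map_mul, val_X V U, pow_add] using this
    · have := (eqW_iff g _ _).1 (hmem i j hi hj
        (eqW (Xw 1 0 i * Xw 0 2 j) (Xw 1 2 (i + j) * Xw 0 2 j * Xw 1 0 i)) (by simp [pairRels]))
      simpa only [map_mul, val_X V U, pow_add] using this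

end Cfsg.Agent.ShortPres.Three
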