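import Cfsg.Agent.ShortPres.Span

/-!
Additive subgroups containing all cubes; additive extension from one polynomial relation.
-/

set_option autoImplicit false

namespace Cfsg.Agent.ShortPres.Three

variable {F : Type*} [Field F] [Finite F]

/-- An additive subgroup containing all cubes of units is everything, outside order four. -/
theorem addSubgroup_eq_top_of_cubes (hq : Nat.card F ≠ 4) (S : AddSubgroup F)
    (h : ∀ s : Fˣ, ((s ^ 3 : Fˣ) : F) ∈ S) : S = ⊤ := by
  classical
  haveI := Fintype.ofFinite F
  let M : Submonoid F :=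
    { carrier := {a | ∃ s : F, a = s ^ 3}
      one_mem' := ⟨1, (one_pow 3).symm⟩
      mul_mem' := fun {a b} ⟨s, hs⟩ ⟨t, ht⟩ => ⟨s * t, by rw [hs, ht, mul_pow]⟩ }
  let R := Subring.closure (M : Set F)
  have hRS : (R : Set F) ⊆ S := fun a ha => by
    have h1 : a ∈ AddSubgroup.closure (M : Set F) := by
      have := Subring.mem_closure_iff.1 ha
      rwa [M.closure_eq] at this
    refine (AddSubgroup.closure_le S).2 ?_ h1
    rintro _ ⟨s, rfl⟩
    rcases eq_or_ne s 0 with rfl | hs
    · simp
    · simpa using h (Units.mk0 s hs)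
  let K : Subfield F :=
    { R with
      inv_mem' := fun a ha => by
        rcases eq_or_ne a 0 with rfl | h0
        · simpa using R.zero_mem
        · rw [show a⁻¹ = a ^ (Fintype.card F - 2) from ?_]
          · exact R.pow_mem ha _
          · refine inv_eq_of_mul_eq_one_right ?_
            rw [← pow_succ', show Fintype.card F - 2 + 1 = Fintype.card F - 1 from ?_]
            · exact FiniteField.pow_card_sub_one_eq_one a h0
            · have := Fintype.one_lt_card (α := F); omega }
  have hK : ∀ a : F, a ^ 3 ∈ K := fun a => Subring.subset_closure ⟨a, rfl⟩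
  have htop : ∀ a : F, a ∈ K := by
    by_contra hne
    push Not at hne
    obtain ⟨a, ha⟩ := hne
    have hc : Fintype.card F = Fintype.card K ^ Module.finrank K F :=
      Module.card_eq_pow_finrank
    have hr : 2 ≤ Module.finrank K F := by
      by_contra hlt
      have h1 : Module.finrank K F = 1 := by
        have := Module.finrank_pos (R := K) (M := F)
        omega
      rw [h1, pow_one] at hc
      have hs : Function.Surjective (Subtype.val : K → F) :=
        ((Fintype.bijective_iff_injective_and_card _).2 ⟨Subtype.val_injective, hc.symm⟩).2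
      obtain ⟨b, rfl⟩ := hs a
      exact ha b.2
    have h2 : Fintype.card F ≤ 3 * Fintype.card K := by
      calc Fintype.card F = (Finset.univ : Finset F).card := rfl
        _ ≤ 3 * (Finset.univ.image fun b : F => (⟨b ^ 3, hK b⟩ : K)).card := by
            refine Finset.card_le_mul_card_image _ _ fun c _ => ?_
            have hsub : (Finset.univ.filter fun b : F => (⟨b ^ 3, hK b⟩ : K) = c) ⊆
                (Polynomial.nthRoots 3 (c : F)).toFinset := fun b hb => by
              rw [Finset.mem_filter] at hb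
              rw [Multiset.mem_toFinset, Polynomial.mem_nthRoots (by norm_num)]
              exact congrArg Subtype.val hb.2
            exact (Finset.card_le_card hsub).trans
              ((Multiset.toFinset_card_le _).trans (Polynomial.card_nthRoots 3 _))
        _ ≤ 3 * Fintype.card K := Nat.mul_le_mul_left 3 (Finset.card_le_univ _)
    have h3 : 2 ≤ Fintype.card K := Fintype.one_lt_card
    have h4 : Fintype.card K ^ 2 ≤ Fintype.card F := hc ▸ Nat.pow_le_pow_right (by omega) hr
    have hKle : Fintype.card K ≤ 3 := by nlinarith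
    rcases (show Fintype.card K = 2 ∨ Fintype.card K = 3 by omega) with e | e
    · rw [e] at hc h2 h4
      have hr3 : Module.finrank K F < 3 := by
        by_contra hlt
        have : 2 ^ 3 ≤ 2 ^ Module.finrank K F := Nat.pow_le_pow_right (by norm_num) (by omega)
        omega
      rw [show Module.finrank K F = 2 by omega] at hc
      exact hq (by rw [Nat.card_eq_fintype_card, hc]; rfl)
    · rw [e] at hc h2 h4
      have hq9 : Fintype.card F = 9 := by omega
      haveI : CharP F 3 := by
        haveI : Fact (Nat.Prime 3) := ⟨by norm_num⟩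
        obtain ⟨r, hr'⟩ := CharP.exists F
        obtain ⟨n, hrp, hn⟩ := FiniteField.card F r
        haveI := Fact.mk hrp
        have hd : r ∣ 3 ^ 2 := by
          rw [show (3 : ℕ) ^ 2 = Fintype.card F by rw [hq9]; rfl, hn]
          exact dvd_pow_self r n.ne_zero
        rw [← (Nat.prime_dvd_prime_iff_eq hrp Fact.out).1 (hrp.dvd_of_dvd_pow hd)]
        exact hr'
      have hinj : Function.Injective fun b : F => (⟨b ^ 3, hK b⟩ : K) := fun b c eb => by
        haveI : Fact (Nat.Prime 3) := ⟨by norm_num⟩
        exact frobenius_inj F 3 (congrArg Subtype.val eb)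
      have := Fintype.card_le_of_injective _ hinj
      omega
  rw [eq_top_iff]
  exact fun a _ => hRS (htop a)

/-- A polynomial whose roots among the units are roots of `f` generates, with `X ^ N - 1`, an ideal
containing `f`. -/
theorem exists_combination (p : ℕ) [Fact p.Prime] [Algebra (ZMod p) F] (f s : Polynomial (ZMod p))
    (h : ∀ ν : F, ν ≠ 0 → Polynomial.aeval ν s = 0 → Polynomial.aeval ν f = 0) :
    ∃ a b : Polynomial (ZMod p), f = a * s + b * (Polynomial.X ^ Nat.card Fˣ - 1) := by
  classical
  haveI := Fintype.ofFinite F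
  set g := EuclideanDomain.gcd s (Polynomial.X ^ Nat.card Fˣ - 1)
  set ι := algebraMap (ZMod p) F
  have hN : 0 < Nat.card Fˣ := Nat.card_pos
  have hne : (Polynomial.X ^ Nat.card Fˣ - 1 : Polynomial F) ≠ 0 := by
    intro e
    have := congrArg (fun q => q.coeff (Nat.card Fˣ)) e
    simp [Polynomial.coeff_one, hN.ne'] at this
  have hsplit : (Polynomial.X ^ Nat.card Fˣ - 1 : Polynomial F) =
      (((Finset.univ : Finset Fˣ).val.map fun a : Fˣ => (a : F)).map fun x => Polynomial.X - Polynomial.C x).prod := by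
    have hroots : ((Finset.univ : Finset Fˣ).val.map fun a : Fˣ => (a : F)) ≤
        (Polynomial.X ^ Nat.card Fˣ - 1 : Polynomial F).roots := by
      rw [Multiset.le_iff_subset ((Finset.univ : Finset Fˣ).nodup.map Units.val_injective)]
      intro x hx
      obtain ⟨a, -, rfl⟩ := Multiset.mem_map.1 hx
      rw [Polynomial.mem_roots hne, Polynomial.IsRoot, Polynomial.eval_sub, Polynomial.eval_pow,
        Polynomial.eval_X, Polynomial.eval_one, ← Units.val_pow_eq_pow_val, pow_card_eq_one',
        Units.val_one, sub_self]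
    have hd := (Multiset.prod_X_sub_C_dvd_iff_le_roots hne _).2 hroots
    refine Polynomial.eq_of_monic_of_dvd_of_natDegree_le
      (Polynomial.monic_multiset_prod_of_monic _ _ fun x _ => Polynomial.monic_X_sub_C x)
      (by simpa using Polynomial.monic_X_pow_sub_C (1 : F) hN.ne') hd ?_
    rw [Polynomial.natDegree_multiset_prod_X_sub_C_eq_card, ← Polynomial.C_1,
      Polynomial.natDegree_X_pow_sub_C]
    simp [Nat.card_eq_fintype_card]
  have hg1 : g.map ι ∣ (Polynomial.X ^ Nat.card Fˣ - 1 : Polynomial F) := by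
    have := Polynomial.map_dvd ι (EuclideanDomain.gcd_dvd_right s (Polynomial.X ^ Nat.card Fˣ - 1))
    simpa [g] using this
  have hgne : g.map ι ≠ 0 := ne_zero_of_dvd_ne_zero hne hg1
  have hgs : (g.map ι).Splits := by
    refine Polynomial.Splits.of_dvd ?_ hne hg1
    rw [hsplit]
    exact Polynomial.Splits.multisetProd fun q hq => by
      obtain ⟨a, -, rfl⟩ := Multiset.mem_map.1 hq
      exact Polynomial.Splits.X_sub_C _
  have hsep : (Polynomial.X ^ Nat.card Fˣ - 1 : Polynomial F).roots.Nodup := by
    rw [hsplit, Polynomial.roots_multiset_prod_X_sub_C]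
    exact (Finset.univ : Finset Fˣ).nodup.map Units.val_injective
  have hdvd : g ∣ f := by
    rw [← Polynomial.map_dvd_map' ι, hgs.eq_prod_roots]
    rcases eq_or_ne f 0 with rfl | hf
    · simp
    refine (IsUnit.mul_left_dvd (Polynomial.isUnit_C.2
      (isUnit_iff_ne_zero.2 (Polynomial.leadingCoeff_ne_zero.2 hgne)))).2 ?_
    rw [Multiset.prod_X_sub_C_dvd_iff_le_roots (Polynomial.map_ne_zero hf)]
    have hle : (g.map ι).roots ≤ (Polynomial.X ^ Nat.card Fˣ - 1 : Polynomial F).roots :=
      Polynomial.roots.le_of_dvd hne hg1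
    rw [Multiset.le_iff_subset (Multiset.nodup_of_le hle hsep)]
    intro ν hν
    have h1 := Multiset.mem_of_le hle hν
    rw [hsplit, Polynomial.roots_multiset_prod_X_sub_C] at h1
    obtain ⟨a, -, rfl⟩ := Multiset.mem_map.1 h1
    rw [Polynomial.mem_roots (Polynomial.map_ne_zero hf), Polynomial.IsRoot,
      Polynomial.eval_map, ← Polynomial.aeval_def]
    refine h _ a.ne_zero ?_
    rw [Polynomial.mem_roots hgne, Polynomial.IsRoot, Polynomial.eval_map, ← Polynomial.aeval_def] at hν
    obtain ⟨q, hq⟩ := EuclideanDomain.gcd_dvd_left s (Polynomial.X ^ Nat.card Fˣ - 1)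
    rw [hq, map_mul, hν, zero_mul]
  obtain ⟨q, hq⟩ := hdvd
  refine ⟨EuclideanDomain.gcdA s (Polynomial.X ^ Nat.card Fˣ - 1) * q,
    EuclideanDomain.gcdB s (Polynomial.X ^ Nat.card Fˣ - 1) * q, ?_⟩
  rw [hq, show g = _ from EuclideanDomain.gcd_eq_gcd_ab s (Polynomial.X ^ Nat.card Fˣ - 1)]
  ring

/-- A family indexed by the units extends additively to the field, from one polynomial relation. -/
theorem exists_additive (p : ℕ) [Fact p.Prime] [Algebra (ZMod p) F] {P : Type*} [Group P]
    {ξ : Fˣ} (hξ : ∀ u : Fˣ, u ∈ Subgroup.zpowers ξ) (X : Fˣ → P) (g : P)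
    (hg : ∀ s, g * X s * g⁻¹ = X (ξ * s)) (hcomm : ∀ s t, Commute (X s) (X t))
    (hp : X 1 ^ p = 1) (s : Polynomial (ZMod p)) (d : ℕ) (hd : s.natDegree < d)
    (hroot : ∀ ν : F, ν ≠ 0 → Polynomial.aeval ν s = 0 →
      Polynomial.aeval ν (minpoly (ZMod p) (ξ : F)) = 0)
    (hf : ((List.range d).map fun i => X (ξ ^ i) ^ (s.coeff i).val).prod = 1) :
    ∃ Y : F → P, (∀ a b, Y a * Y b = Y (a + b)) ∧ ∀ s : Fˣ, Y s = X s := by
  classical
  let U : Subgroup P := Subgroup.closure (Set.range X)
  haveI hU : IsMulCommutative U := Subgroup.isMulCommutative_closure (by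
    rintro _ ⟨s, rfl⟩ _ ⟨t, rfl⟩; exact hcomm s t)
  let Xu : Fˣ → U := fun s => ⟨X s, Subgroup.subset_closure ⟨s, rfl⟩⟩
  letI : CommGroup U := { (inferInstance : Group U) with mul_comm := fun a b => mul_comm' a b }
  have hpow : ∀ m : ℕ, X (ξ ^ m) ^ p = 1 := fun m => by
    induction m with
    | zero => rw [pow_zero]; exact hp
    | succ m ih => rw [pow_succ', ← hg, conj_pow, ih, mul_one, mul_inv_cancel]
  have hpU : ∀ a : Additive U, p • a = 0 := by
    intro a
    have hker : U ≤ ((powMonoidHom p : U →* U).ker).map U.subtype := by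
      rw [Subgroup.closure_le]
      rintro _ ⟨t, rfl⟩
      refine ⟨Xu t, ?_, rfl⟩
      obtain ⟨m, rfl⟩ := (isOfFinOrder_of_finite ξ).mem_powers_iff_mem_zpowers.2 (hξ t)
      exact Subtype.ext (hpow m)
    obtain ⟨b, hb, e⟩ := hker a.toMul.2
    have : b = a.toMul := Subtype.ext e
    subst this
    exact congrArg Additive.ofMul hb
  letI : Module (ZMod p) (Additive U) := AddCommGroup.zmodModule hpU
  let v : ℕ → Additive U := fun m => Additive.ofMul (Xu (ξ ^ m))
  obtain ⟨θ, hθ⟩ : ∃ θ : Polynomial (ZMod p) →+ Additive U,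
      ∀ m c, θ (Polynomial.monomial m c) = c • v m := by
    refine ⟨{ toFun := fun q => q.sum fun m c => c • v m
              map_zero' := Polynomial.sum_zero_index _
              map_add' := fun a b => Polynomial.sum_add_index a b _ (fun i => zero_smul _ _)
                (fun i c d => add_smul c d _) }, fun m c => ?_⟩
    exact Polynomial.sum_monomial_index c (fun m c => c • v m) (zero_smul _ _)
  have hsgen : ∀ (k : ℕ), θ (Polynomial.X ^ k * s) = 0 := by
    intro k
    conv_lhs => rw [s.as_sum_range' d hd, Finset.mul_sum, map_sum]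
    have hterm : ∀ i, θ (Polynomial.X ^ k * Polynomial.monomial i (s.coeff i)) =
        Additive.ofMul (Xu (ξ ^ (k + i)) ^ (s.coeff i).val) := fun i => by
      rw [Polynomial.X_pow_eq_monomial, Polynomial.monomial_mul_monomial, one_mul, hθ, ofMul_pow,
        ← Nat.cast_smul_eq_nsmul (ZMod p), ZMod.natCast_zmod_val]
    simp only [hterm]
    rw [← ofMul_prod, ← List.toFinset_range, List.prod_toFinset _ List.nodup_range, ← ofMul_one]
    refine congrArg Additive.ofMul (Subtype.ext ?_)
    have hk : ∀ j i, X (ξ ^ (j + i)) = MulAut.conj (g ^ j) (X (ξ ^ i)) := fun j i => by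
      clear hterm
      induction j with
      | zero => simp
      | succ j ih =>
        rw [pow_succ' g, map_mul, MulAut.mul_apply, ← ih, MulAut.conj_apply, hg, ← pow_succ']
        congr 2
        omega
    rw [show ((1 : U) : P) = MulAut.conj (g ^ k) 1 from (map_one _).symm, ← hf, map_list_prod,
      Subgroup.val_list_prod, List.map_map, List.map_map]
    refine congrArg List.prod (List.map_congr_left fun i _ => ?_)
    simp [Xu, hk, map_pow, Subgroup.coe_pow]
  have hlin : ∀ (q : Polynomial (ZMod p)), (∀ k, θ (Polynomial.X ^ k * q) = 0) → ∀ r, θ (r * q) = 0 :=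
    fun q hq r => by
      induction r using Polynomial.induction_on' with
      | add a b ha hb => rw [add_mul, map_add, ha, hb, add_zero]
      | monomial n c =>
        rw [← Polynomial.C_mul_X_pow_eq_monomial, mul_assoc, ← Polynomial.smul_eq_C_mul,
          ← ZMod.natCast_zmod_val c, Nat.cast_smul_eq_nsmul, map_nsmul, hq, smul_zero]
  have hN : ∀ k, θ (Polynomial.X ^ k * (Polynomial.X ^ Nat.card Fˣ - 1)) = 0 := fun k => by
    rw [mul_sub, mul_one, ← pow_add, map_sub, Polynomial.X_pow_eq_monomial, Polynomial.X_pow_eq_monomial,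
      hθ, hθ, one_smul, one_smul, sub_eq_zero]
    simp only [v, Xu, pow_add, pow_card_eq_one', mul_one]
  obtain ⟨ca, cb, hab⟩ := exists_combination (F := F) p (minpoly (ZMod p) (ξ : F)) s hroot
  have hmul : ∀ r : Polynomial (ZMod p), θ (r * minpoly (ZMod p) (ξ : F)) = 0 := fun r => by
    rw [hab, mul_add, map_add, ← mul_assoc, ← mul_assoc, hlin s hsgen, hlin _ hN, add_zero]
  have hsurj : ∀ a : F, ∃ r : Polynomial (ZMod p), Polynomial.aeval (ξ : F) r = a := fun a => by
    rcases eq_or_ne a 0 with rfl | ha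
    · exact ⟨0, map_zero _⟩
    · obtain ⟨m, hm⟩ := (isOfFinOrder_of_finite ξ).mem_powers_iff_mem_zpowers.2 (hξ (Units.mk0 a ha))
      exact ⟨Polynomial.X ^ m, by simpa using congrArg Units.val hm⟩
  choose r hr using hsurj
  have hwd : ∀ (a : F) (q : Polynomial (ZMod p)), Polynomial.aeval (ξ : F) q = a → θ q = θ (r a) :=
    fun a q hq => by
      obtain ⟨w, hw⟩ := minpoly.dvd (ZMod p) (ξ : F) (p := q - r a) (by rw [map_sub, hq, hr, sub_self])
      rw [← sub_eq_zero, ← map_sub, hw, mul_comm]
      exact hmul w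
  refine ⟨fun a => (Additive.toMul (θ (r a)) : U), fun a b => ?_, fun t => ?_⟩
  · beta_reduce
    rw [← hwd (a + b) (r a + r b) (by rw [map_add, hr, hr]), map_add, toMul_add, Subgroup.coe_mul]
  · obtain ⟨m, rfl⟩ := (isOfFinOrder_of_finite ξ).mem_powers_iff_mem_zpowers.2 (hξ t)
    show ((Additive.toMul (θ (r _)) : U) : P) = _
    rw [← hwd _ (Polynomial.monomial m 1) (by simp), hθ, one_smul]
    rfl

/-- A relation `x = c(x³)` cutting out the conjugates of `ξ`. -/
theorem exists_span_poly (p : ℕ) [Fact p.Prime] [Algebra (ZMod p) F] (hq : Nat.card F ≠ 4)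
    (ξ : Fˣ) (hξ : ∀ u : Fˣ, u ∈ Subgroup.zpowers ξ) :
    ∃ c : Polynomial (ZMod p), Polynomial.aeval ((ξ : F) ^ 3) c = ξ ∧
      ∀ ν : F, ν ≠ 0 → Polynomial.aeval (ν ^ 3) c = ν →
        Polynomial.aeval ν (minpoly (ZMod p) (ξ : F)) = 0 := by
  classical
  haveI := Fintype.ofFinite F
  haveI : Finite (ZMod p) := inferInstance
  set y : F := (ξ : F) ^ 3
  obtain ⟨c0, hc0⟩ : ∃ c0 : Polynomial (ZMod p), Polynomial.aeval y c0 = (ξ : F) := by
    have hS := addSubgroup_eq_top_of_cubes hq (Polynomial.aeval (R := ZMod p) y).range.toSubring.toAddSubgroup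
      fun t => by
        obtain ⟨m, rfl⟩ := (isOfFinOrder_of_finite ξ).mem_powers_iff_mem_zpowers.2 (hξ t)
        exact ⟨Polynomial.X ^ m, by simp [y, ← pow_mul, mul_comm]⟩
    have : (ξ : F) ∈ (Polynomial.aeval (R := ZMod p) y).range.toSubring.toAddSubgroup := hS ▸ AddSubgroup.mem_top _
    exact this
  set A := minpoly (ZMod p) y
  have hint : IsIntegral (ZMod p) y := Algebra.IsIntegral.isIntegral y
  -- the cubes of the units other than the conjugates of `y`
  set T : Polynomial (ZMod p) := Polynomial.X ^ Nat.card Fˣ - 1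
  have hTy : Polynomial.aeval y T = 0 := by
    simp only [T, map_sub, map_pow, Polynomial.aeval_X, map_one, y]
    rw [← Units.val_pow_eq_pow_val, ← Units.val_pow_eq_pow_val, pow_card_eq_one', Units.val_one, sub_self]
  obtain ⟨B, hB⟩ := minpoly.dvd (ZMod p) y hTy
  have hsepT : T.Separable := by
    have hcast : ((Nat.card Fˣ : ℕ) : ZMod p) ≠ 0 := by
      rw [Ne, ZMod.natCast_eq_zero_iff]
      intro hd
      haveI : CharP F p := charP_of_injective_algebraMap (algebraMap (ZMod p) F).injective p
      have h0 : ((Nat.card Fˣ : ℕ) : F) = 0 := (CharP.cast_eq_zero_iff F p _).2 hd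
      rw [Nat.card_eq_fintype_card, Fintype.card_units,
        Nat.cast_sub (Fintype.card_pos (α := F)), FiniteField.cast_card_eq_zero, zero_sub,
        neg_eq_zero] at h0
      simp at h0
    exact Polynomial.separable_X_pow_sub_C 1 hcast one_ne_zero |> fun h => by simpa [T] using h
  have hcop : IsCoprime A B := by
    rw [hB] at hsepT
    exact hsepT.isCoprime
  obtain ⟨a, b, hab⟩ := hcop
  refine ⟨c0 * (b * B), ?_, fun ν hν0 hν => ?_⟩
  · have h1 := congrArg (Polynomial.aeval y) hab
    rw [map_add, map_mul, minpoly.aeval, mul_zero, zero_add, map_one, map_mul] at h1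
    rw [map_mul, map_mul, hc0, h1, mul_one]
  · have hA : Polynomial.aeval (ν ^ 3) A = 0 := by
      by_contra hA
      have hT : Polynomial.aeval (ν ^ 3) T = 0 := by
        simp only [T, map_sub, map_pow, Polynomial.aeval_X, map_one]
        rw [pow_right_comm, show ν = ((Units.mk0 ν hν0 : Fˣ) : F) from rfl,
          ← Units.val_pow_eq_pow_val, pow_card_eq_one', Units.val_one, one_pow, sub_self]
      rw [hB, map_mul, mul_eq_zero] at hT
      rw [map_mul, map_mul, hT.resolve_left hA, mul_zero, mul_zero] at hν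
      exact hν0 hν.symm
    have h1 := congrArg (Polynomial.aeval (ν ^ 3)) hab
    rw [map_add, map_mul, hA, mul_zero, zero_add, map_one] at h1
    rw [map_mul, h1, mul_one] at hν
    rw [← hν, ← Polynomial.aeval_comp]
    have hA2 : A ∣ (minpoly (ZMod p) (ξ : F)).comp c0 :=
      minpoly.dvd (ZMod p) y (by rw [Polynomial.aeval_comp, hc0, minpoly.aeval])
    obtain ⟨w, hw⟩ := hA2
    rw [hw, map_mul, hA, zero_mul]

end Cfsg.Agent.ShortPres.Three
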