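import Cfsg.Agent.ShortPres.Three.Scale
import Cfsg.Agent.ShortPres.Mono

/-!
Recognition of `SL₃` and the relations in the target.
-/

set_option autoImplicit false

namespace Cfsg.Agent.ShortPres.Three

open Matrix Equiv

variable {F : Type*} [Field F] [Finite F] {P : Type*} [Group P] {S : Seed F P} {u : P}

theorem sl_ext {n : Type*} [Fintype n] [DecidableEq n] {A B : SpecialLinearGroup n F}
    (h : (A : Matrix n n F) = (B : Matrix n n F)) : A = B := Subtype.ext h

theorem conj_eq {n : Type*} [Fintype n] [DecidableEq n] {g A B : SpecialLinearGroup n F}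
    (h : (g : Matrix n n F) * (A : Matrix n n F) = (B : Matrix n n F) * g) : MulAut.conj g A = B := by
  rw [MulAut.conj_apply, mul_inv_eq_iff_eq_mul]
  exact Subtype.ext h

/-- The rotation of three points. -/
def rot : alternatingGroup (Fin 3) :=
  ⟨Equiv.addRight 1, Perm.mem_alternatingGroup.2 (by decide)⟩

/-- Its matrix. -/
def rotSL : SpecialLinearGroup (Fin 3) F := permSL rot

/-- A diagonal matrix of determinant one from units. -/
def diag3 (f : Fin 3 → Fˣ) (h : f 0 * f 1 * f 2 = 1) : SpecialLinearGroup (Fin 3) F :=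
  ⟨diagonal fun x => (f x : F), by
    rw [det_diagonal, Fin.prod_univ_three]
    exact congrArg Units.val h⟩

/-- The first torus. -/
def diag01 : Fˣ →* SpecialLinearGroup (Fin 3) F where
  toFun a := diag3 ![a, a⁻¹, 1] (by simp)
  map_one' := sl_ext (by
    show diagonal _ = (1 : Matrix (Fin 3) (Fin 3) F)
    rw [← diagonal_one]; congr 1; funext x; fin_cases x <;> simp)
  map_mul' a b := sl_ext (by
    show diagonal _ = diagonal _ * diagonal _
    rw [diagonal_mul_diagonal]; congr 1; funext x; fin_cases x <;> simp [mul_comm])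

/-- The images of the generators. -/
structure Eval (S : Seed F P) (u : P) (E : P →* SpecialLinearGroup (Fin 3) F) : Prop where
  map_c : E S.c = rotSL
  map_h : E S.h = diag01 S.ξ
  map_u : E u = SpecialLinearGroup.transvection (show (0 : Fin 3) ≠ 1 by decide) (1 : F)

variable {E : P →* SpecialLinearGroup (Fin 3) F}

theorem map_conj' {P' : Type*} [Group P'] (f : P →* P') (g x : P) :
    f (MulAut.conj g x) = MulAut.conj (f g) (f x) := by simp [MulAut.conj_apply]

theorem conj_rot_transvection {i j : Fin 3} (h : i ≠ j) (t : F) :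
    MulAut.conj rotSL (SpecialLinearGroup.transvection h t) =
      SpecialLinearGroup.transvection (show i + 1 ≠ j + 1 from fun e => h (add_right_cancel e)) t := by
  refine conj_eq ?_
  exact permMat_conj_transvection _ i j t

theorem conj_rot_diag (f : Fin 3 → Fˣ) (h : f 0 * f 1 * f 2 = 1)
    (h' : (fun x : Fin 3 => f (x + 2)) 0 * (fun x : Fin 3 => f (x + 2)) 1 * (fun x : Fin 3 => f (x + 2)) 2 = 1) :
    MulAut.conj rotSL (diag3 f h) = diag3 (fun x => f (x + 2)) h' := by
  refine conj_eq ?_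
  show permMat _ * diagonal _ = diagonal _ * permMat _
  rw [permMat_conj_diagonal]
  congr 2

theorem eval_τ (R : TorusRels S) (hE : Eval S u E) {f : Fin 3 → Fˣ} (hf : f 0 * f 1 * f 2 = 1) :
    E (R.τ f) = diag3 f hf := by
  have hφ : E.comp S.φ₀ = diag01 := S.ext_gen (by simpa [S.φ₀_gen] using hE.map_h)
  have h0 : ∀ a, E (S.φ 0 a) = diag01 a := fun a => by
    rw [S.φ_apply, ← hφ]; simp
  have h1 : ∀ a, E (S.φ 1 a) = diag3 ![1, a, a⁻¹] (by simp) := fun a => by
    rw [show S.φ 1 a = MulAut.conj S.c (S.φ 0 a) from (S.conj_φ 0 a).symm, map_conj', hE.map_c, h0]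
    have hp : (![a, a⁻¹, 1] : Fin 3 → Fˣ) 0 * (![a, a⁻¹, 1] : Fin 3 → Fˣ) 1 * (![a, a⁻¹, 1] : Fin 3 → Fˣ) 2 = 1 := by simp
    show MulAut.conj rotSL (diag3 ![a, a⁻¹, 1] hp) = _
    rw [conj_rot_diag _ hp (by simp [show (0 : Fin 3) + 2 = 2 from rfl, show (1 : Fin 3) + 2 = 0 from rfl,
      show (2 : Fin 3) + 2 = 1 from rfl])]
    refine sl_ext ?_
    show diagonal _ = diagonal _
    congr 1; funext x; fin_cases x <;> simp [show (0 : Fin 3) + 2 = 2 from rfl,
      show (1 : Fin 3) + 2 = 0 from rfl, show (2 : Fin 3) + 2 = 1 from rfl]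
  rw [R.τ_apply, map_mul, h0, h1]
  refine sl_ext ?_
  show diagonal _ * diagonal _ = diagonal _
  rw [diagonal_mul_diagonal]
  congr 1
  funext x
  have h2 : f 2 = (f 0 * f 1)⁻¹ := eq_inv_of_mul_eq_one_right hf
  fin_cases x <;> simp [h2, mul_comm]

theorem commutator_12_20 (a b : F) :
    SpecialLinearGroup.transvection (show (1 : Fin 3) ≠ 2 by decide) a *
      SpecialLinearGroup.transvection (show (2 : Fin 3) ≠ 0 by decide) b *
      (SpecialLinearGroup.transvection (show (1 : Fin 3) ≠ 2 by decide) a)⁻¹ *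
      (SpecialLinearGroup.transvection (show (2 : Fin 3) ≠ 0 by decide) b)⁻¹ =
    SpecialLinearGroup.transvection (show (1 : Fin 3) ≠ 0 by decide) (a * b) := by
  rw [← commutatorElement_def]
  exact Cfsg.Agent.Linear.transvection_commutator _ _ _ a b

theorem eval_X (U : RootSeed S u) (hE : Eval S u E) {i j : Fin 3} (hij : i ≠ j) (s : Fˣ) :
    E (U.X i j s) = SpecialLinearGroup.transvection hij (s : F) := by
  have hc : ∀ {i j : Fin 3} (hij : i ≠ j), E (U.X i j s) = SpecialLinearGroup.transvection hij (s : F) →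
      E (U.X (i + 1) (j + 1) s) =
        SpecialLinearGroup.transvection (show i + 1 ≠ j + 1 from fun e => hij (add_right_cancel e)) (s : F) := by
    intro i j hij h
    rw [← U.conj_c_X, map_conj', hE.map_c, h, conj_rot_transvection]
  have h01 : E (U.X 0 1 s) = SpecialLinearGroup.transvection (show (0 : Fin 3) ≠ 1 by decide) (s : F) := by
    rw [U.X01, map_conj', hE.map_u, eval_τ U.torus hE (by simp)]
    exact conj_eq (diagonal_conj_transvection _ _ _ (by simp))
  have hu : ∀ {i j : Fin 3} (hij : i ≠ j) (k : Fin 3), i = 0 + k → j = 1 + k →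
      E (MulAut.conj (S.c ^ k.val) u) = SpecialLinearGroup.transvection hij (1 : F) := by
    intro i j hij k hi hj
    rw [map_conj', map_pow, hE.map_c, hE.map_u]
    subst hi hj
    fin_cases k
    · simp
    · show MulAut.conj (rotSL ^ 1) (SpecialLinearGroup.transvection _ (1 : F)) = _
      rw [pow_one, conj_rot_transvection]
    · show MulAut.conj (rotSL ^ 2) (SpecialLinearGroup.transvection _ (1 : F)) = _
      rw [pow_two, map_mul, MulAut.mul_apply, conj_rot_transvection, conj_rot_transvection]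
  have h10 : E (U.X 1 0 s) = SpecialLinearGroup.transvection (show (1 : Fin 3) ≠ 0 by decide) (s : F) := by
    have hv : E U.v = SpecialLinearGroup.transvection (show (1 : Fin 3) ≠ 0 by decide) (1 : F) := by
      have e1 := hu (show (1 : Fin 3) ≠ 2 by decide) 1 rfl rfl
      have e2 := hu (show (2 : Fin 3) ≠ 0 by decide) 2 rfl rfl
      rw [MulAut.conj_apply] at e1 e2
      simp only [Fin.val_one, pow_one] at e1
      rw [show ((2 : Fin 3).val) = 2 from rfl] at e2
      rw [RootSeed.v, map_mul, map_mul, map_inv, map_mul, map_inv, e1, e2, commutator_12_20, one_mul]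
    rw [U.X10, map_conj', hv, eval_τ U.torus hE (by simp)]
    exact conj_eq (diagonal_conj_transvection _ _ _ (by simp))
  have a12 := hc _ h01
  have a20 := hc _ a12
  have a21 := hc _ h10
  have a02 := hc _ a21
  fin_cases i <;> fin_cases j <;> first | exact absurd rfl hij | exact h01 | exact h10 | exact a12 | exact a20 | exact a21 | exact a02

/-- The recognition theorem. -/
theorem bijective_eval (U : RootSeed S u) {Y : F → P} (hY : Ext U Y) (R : Full U) (hE : Eval S u E)
    (hh : S.h ∈ Subgroup.closure {x | ∃ i j, i ≠ j ∧ ∃ s, U.X i j s = x})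
    (hc : S.c ∈ Subgroup.closure {x | ∃ i j, i ≠ j ∧ ∃ s, U.X i j s = x})
    (hgen : Subgroup.closure {S.c, S.h, u} = ⊤) : Function.Bijective E := by
  obtain ⟨Z, hSys, hZ⟩ := R.exists_sys hY
  obtain ⟨Φ, hΦ⟩ := Spec.StPres.exists_hom le_rfl hSys
  have hrange : Subgroup.closure {x | ∃ i j, i ≠ j ∧ ∃ s, U.X i j s = x} ≤ Φ.range := by
    rw [Subgroup.closure_le]
    rintro _ ⟨i, j, hij, s, rfl⟩
    exact ⟨_, (hΦ i j hij s).trans (hZ i j hij s)⟩
  have hsurj : Function.Surjective Φ := by
    rw [← MonoidHom.range_eq_top, eq_top_iff, ← hgen, Subgroup.closure_le]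
    rintro x (rfl | rfl | rfl)
    · exact hrange hc
    · exact hrange hh
    · exact hrange (Subgroup.subset_closure ⟨0, 1, by decide, 1, U.X_seed⟩)
  have hid : ∀ A, E (Φ A) = A := fun A => by
    induction A using Cfsg.Agent.Linear.transvection_induction with
    | htransvec i j h t =>
      rcases eq_or_ne t 0 with rfl | ht
      · rw [show SpecialLinearGroup.transvection h (0 : F) = 1 from
          Subtype.ext (Matrix.transvection_zero i j), map_one, map_one]
      have e := hZ i j h (Units.mk0 t ht)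
      rw [Units.val_mk0] at e
      rw [hΦ i j h t, e, eval_X U hE h, Units.val_mk0]
    | hmul A B hA hB => rw [map_mul, map_mul, hA, hB]
  refine ⟨fun x y e => ?_, fun A => ⟨Φ A, hid A⟩⟩
  obtain ⟨a, rfl⟩ := hsurj x
  obtain ⟨b, rfl⟩ := hsurj y
  rw [hid, hid] at e
  rw [e]

/-- The seed inside the special linear group. -/
noncomputable def seed0 (ξ : Fˣ) (hξ : ∀ a : Fˣ, a ∈ Subgroup.zpowers ξ) :
    Seed F (SpecialLinearGroup (Fin 3) F) where
  ξ := ξ
  hξ := hξ
  c := rotSL
  h := diag01 ξ
  hc := by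
    show rotSL ^ 3 = 1
    rw [rotSL, ← map_pow, show (rot : alternatingGroup (Fin 3)) ^ 3 = 1 from Subtype.ext (by decide),
      map_one]
  hN := by rw [← map_pow, pow_card_eq_one', map_one]

variable {ξ : Fˣ} {hξ : ∀ a : Fˣ, a ∈ Subgroup.zpowers ξ}

/-- The root element of the target. -/
noncomputable abbrev u0 (F : Type*) [Field F] : SpecialLinearGroup (Fin 3) F :=
  SpecialLinearGroup.transvection (show (0 : Fin 3) ≠ 1 by decide) (1 : F)

theorem eval0 : Eval (seed0 ξ hξ) (u0 F) (MonoidHom.id _) := ⟨rfl, rfl, rfl⟩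

theorem φ0_seed0 (a : Fˣ) : (seed0 ξ hξ).φ 0 a = diag01 a := by
  have : (seed0 ξ hξ).φ₀ = diag01 := (seed0 ξ hξ).ext_gen ((seed0 ξ hξ).φ₀_gen.trans rfl)
  rw [Seed.φ_apply, this]
  simp

theorem φ1_seed0 (a : Fˣ) : (seed0 ξ hξ).φ 1 a = diag3 ![1, a, a⁻¹] (by simp) := by
  rw [show (seed0 ξ hξ).φ 1 a = MulAut.conj (seed0 ξ hξ).c ((seed0 ξ hξ).φ 0 a) from
    ((seed0 ξ hξ).conj_φ 0 a).symm, φ0_seed0]
  refine conj_eq ?_
  show permMat _ * diagonal _ = diagonal _ * permMat _
  rw [permMat_conj_diagonal]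
  congr 2
  funext x; fin_cases x <;> rfl

theorem φ2_seed0 (a : Fˣ) : (seed0 ξ hξ).φ 2 a = diag3 ![a⁻¹, 1, a] (by simp) := by
  rw [show (seed0 ξ hξ).φ 2 a = MulAut.conj (seed0 ξ hξ).c ((seed0 ξ hξ).φ 1 a) from
    ((seed0 ξ hξ).conj_φ 1 a).symm, φ1_seed0]
  refine conj_eq ?_
  show permMat _ * diagonal _ = diagonal _ * permMat _
  rw [permMat_conj_diagonal]
  congr 2
  funext x; fin_cases x <;> rfl

theorem torusRels0 : TorusRels (seed0 ξ hξ) where
  comm := by
    rw [φ0_seed0, φ1_seed0]
    refine sl_ext ?_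
    show diagonal _ * diagonal _ = diagonal _ * diagonal _
    rw [diagonal_mul_diagonal, diagonal_mul_diagonal]
    congr 1; funext x; exact mul_comm _ _
  prod := by
    rw [φ0_seed0, φ1_seed0, φ2_seed0]
    refine sl_ext ?_
    show diagonal _ * diagonal _ * diagonal _ = (1 : Matrix (Fin 3) (Fin 3) F)
    rw [diagonal_mul_diagonal, diagonal_mul_diagonal, ← diagonal_one]
    congr 1; funext x; fin_cases x <;> simp [seed0]

theorem ker0 {i j : Fin 3} (hij : (i = 0 ∧ j = 1) ∨ (i = 1 ∧ j = 0)) (h : i ≠ j) :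
    Commute ((seed0 ξ hξ).φ 0 ξ * (seed0 ξ hξ).φ 1 ξ ^ 2) (SpecialLinearGroup.transvection h (1 : F)) := by
  rw [φ0_seed0, φ1_seed0, sq]
  refine sl_ext ?_
  show diagonal _ * (diagonal _ * diagonal _) * Matrix.transvection i j (1 : F) =
    Matrix.transvection i j (1 : F) * (diagonal _ * (diagonal _ * diagonal _))
  rw [diagonal_mul_diagonal, diagonal_mul_diagonal]
  refine diagonal_conj_transvection _ _ _ ?_
  rcases hij with ⟨rfl, rfl⟩ | ⟨rfl, rfl⟩ <;> simp

theorem rootSeed0 : RootSeed (seed0 ξ hξ) (u0 F) where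
  torus := torusRels0
  ker₁ := ker0 (Or.inl ⟨rfl, rfl⟩) _
  ker₂ := by
    have e1 : MulAut.conj (rotSL (F := F)) (u0 F) =
        SpecialLinearGroup.transvection (show (1 : Fin 3) ≠ 2 by decide) (1 : F) := conj_rot_transvection _ _
    have e2 : MulAut.conj ((rotSL (F := F)) ^ 2) (u0 F) =
        SpecialLinearGroup.transvection (show (2 : Fin 3) ≠ 0 by decide) (1 : F) := by
      rw [pow_two, map_mul, MulAut.mul_apply, e1, conj_rot_transvection]
    rw [MulAut.conj_apply] at e1 e2
    show Commute _ (rotSL * u0 F * rotSL⁻¹ * (rotSL ^ 2 * u0 F * (rotSL ^ 2)⁻¹) * (rotSL * u0 F * rotSL⁻¹)⁻¹ *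
      (rotSL ^ 2 * u0 F * (rotSL ^ 2)⁻¹)⁻¹)
    rw [e1, e2, commutator_12_20, one_mul]
    exact ker0 (Or.inr ⟨rfl, rfl⟩) _

theorem X_seed0 {i j : Fin 3} (hij : i ≠ j) (s : Fˣ) :
    (rootSeed0 (ξ := ξ) (hξ := hξ)).X i j s = SpecialLinearGroup.transvection hij (s : F) :=
  eval_X (E := MonoidHom.id _) _ eval0 hij s

theorem transvection_pow {i j : Fin 3} (hij : i ≠ j) (t : F) (k : ℕ) :
    (SpecialLinearGroup.transvection hij t) ^ k = SpecialLinearGroup.transvection hij (k * t) := by
  induction k with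
  | zero => exact sl_ext (by simp [SpecialLinearGroup.transvection_coe])
  | succ k ih =>
    rw [pow_succ, ih]
    refine sl_ext ?_
    rw [Cfsg.Agent.Linear.val_mul]
    show Matrix.transvection i j _ * Matrix.transvection i j _ = Matrix.transvection i j _
    rw [Matrix.transvection_mul_transvection_same i j hij, Nat.cast_succ, add_mul, one_mul]

theorem full0 : Full (rootSeed0 (ξ := ξ) (hξ := hξ)) := by
  have Sy := Spec.StPres.sys_transvection (K := F) 3
  refine ⟨⟨fun a b => ?_, fun a b => ?_, fun a b => ?_⟩, fun a b => ?_, fun a b => ?_⟩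
  · rw [X_seed0 (by decide), X_seed0 (by decide)]
    have := Sy.comm0 (0 : Fin 3) 1 0 1 (by decide) (by decide) (by decide) (by decide) (a : F) (b : F)
    simpa [Commute, SemiconjBy] using this
  · rw [X_seed0 (by decide), X_seed0 (by decide)]
    have := Sy.comm0 (0 : Fin 3) 1 0 2 (by decide) (by decide) (by decide) (by decide) (a : F) (b : F)
    simpa [Commute, SemiconjBy] using this
  · rw [X_seed0 (by decide), X_seed0 (by decide)]
    have := Sy.comm0 (0 : Fin 3) 2 1 2 (by decide) (by decide) (by decide) (by decide) (a : F) (b : F)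
    simpa [Commute, SemiconjBy] using this
  · rw [X_seed0 (by decide), X_seed0 (by decide), X_seed0 (by decide)]
    have := Sy.comm1 (1 : Fin 3) 2 0 (by decide) (by decide) (by decide) (a : F) (b : F)
    simpa using this
  · rw [X_seed0 (by decide), X_seed0 (by decide), X_seed0 (by decide)]
    have := Sy.comm1 (1 : Fin 3) 0 2 (by decide) (by decide) (by decide) (a : F) (b : F)
    simpa using this

theorem u0_pow (p : ℕ) [CharP F p] : u0 F ^ p = 1 := by
  rw [transvection_pow, CharP.cast_eq_zero F p, zero_mul]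
  exact sl_ext (Matrix.transvection_zero _ _)

theorem sum_rel0 (p : ℕ) [Fact p.Prime] [Algebra (ZMod p) F] (s : Polynomial (ZMod p)) (d : ℕ)
    (hd : s.natDegree < d) (hs : Polynomial.aeval (ξ : F) s = 0) :
    ((List.range d).map fun i =>
      (rootSeed0 (ξ := ξ) (hξ := hξ)).X 0 1 (ξ ^ i) ^ (s.coeff i).val).prod = 1 := by
  have hsum : ∀ l : List ℕ, (l.map fun i =>
      (rootSeed0 (ξ := ξ) (hξ := hξ)).X 0 1 (ξ ^ i) ^ (s.coeff i).val).prod =
      SpecialLinearGroup.transvection (show (0 : Fin 3) ≠ 1 by decide)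
        (l.map fun i => algebraMap (ZMod p) F (s.coeff i) * (ξ : F) ^ i).sum := by
    intro l
    induction l with
    | nil => exact sl_ext (by simp [SpecialLinearGroup.transvection_coe])
    | cons a l ih =>
      rw [List.map_cons, List.prod_cons, ih, X_seed0 (by decide), transvection_pow, List.map_cons,
        List.sum_cons]
      refine sl_ext ?_
      rw [Cfsg.Agent.Linear.val_mul]
      show Matrix.transvection _ _ _ * Matrix.transvection _ _ _ = Matrix.transvection _ _ _
      rw [Matrix.transvection_mul_transvection_same (0 : Fin 3) 1 (by decide), Units.val_pow_eq_pow_val,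
        ← map_natCast (algebraMap (ZMod p) F), ZMod.natCast_zmod_val]
  rw [hsum]
  refine sl_ext ?_
  show Matrix.transvection _ _ _ = (1 : Matrix (Fin 3) (Fin 3) F)
  rw [← List.sum_toFinset _ List.nodup_range, List.toFinset_range]
  rw [Polynomial.aeval_eq_sum_range' hd] at hs
  rw [show ∑ i ∈ Finset.range d, algebraMap (ZMod p) F (s.coeff i) * (ξ : F) ^ i = 0 by
    simpa [Algebra.smul_def] using hs, Matrix.transvection_zero]

end Cfsg.Agent.ShortPres.Three
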