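import Cfsg.Agent.ShortPres.Three.Seed
import Cfsg.Agent.ShortPres.Three.Algebra
import Cfsg.Agent.Spec.StPres.Final

/-!
The Steinberg relations in degree three.
-/

set_option autoImplicit false

namespace Cfsg.Agent.ShortPres.Three

variable {F : Type*} [Field F] [Finite F] {P : Type*} [Group P] {S : Seed F P} {u : P}

theorem swap_left {G : Type*} [Group G] {a x : G} (h : Commute a x) (v y : G) :
    x * (a * v * y) = a * (x * v) * y := by
  rw [← mul_assoc, ← mul_assoc, ← h.eq, mul_assoc a x v]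

/-- An element of determinant one with two prescribed ratios whose product is a cube. -/
theorem exists_entries (i j k : Fin 3) (hij : i ≠ j) (hik : i ≠ k) (hjk : j ≠ k) (a b d : Fˣ)
    (h : a * b = d ^ 3) :
    ∃ f : Fin 3 → Fˣ, f 0 * f 1 * f 2 = 1 ∧ f i / f j = a ∧ f i / f k = b := by
  refine ⟨fun x => if x = i then d else if x = j then d / a else d / b, ?_, ?_, ?_⟩
  · have e : d * (d / a) * (d / b) = 1 := by
      rw [mul_div_assoc', mul_div_assoc', div_mul_eq_mul_div, div_div, h, div_eq_one]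
      rw [pow_succ, pow_succ, pow_one]
    fin_cases i <;> fin_cases j <;> fin_cases k <;>
      first
      | exact absurd rfl hij
      | exact absurd rfl hik
      | exact absurd rfl hjk
      | simpa [mul_comm, mul_left_comm, mul_assoc] using e
  · simp [hij.symm]
  · simp [hik.symm, hjk.symm]

/-- Relations for all values on one vertex. -/
structure Lines (U : RootSeed S u) : Prop where
  self : ∀ a b, Commute (U.X 0 1 a) (U.X 0 1 b)
  row : ∀ a b, Commute (U.X 0 1 a) (U.X 0 2 b)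
  col : ∀ a b, Commute (U.X 0 2 a) (U.X 1 2 b)

namespace Lines

variable {U : RootSeed S u} (L : Lines U)
include L

theorem row_any (k : Fin 3) (a b : Fˣ) : Commute (U.X k (1 + k) a) (U.X k (2 + k) b) := by
  have h : Commute (MulAut.conj (S.c ^ k.val) (U.X 0 1 a)) (MulAut.conj (S.c ^ k.val) (U.X 0 2 b)) :=
    (L.row a b).map _
  rwa [U.conj_cpow_X, U.conj_cpow_X, zero_add] at h

theorem col_any (k : Fin 3) (a b : Fˣ) : Commute (U.X k (2 + k) a) (U.X (1 + k) (2 + k) b) := by
  have h : Commute (MulAut.conj (S.c ^ k.val) (U.X 0 2 a)) (MulAut.conj (S.c ^ k.val) (U.X 1 2 b)) :=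
    (L.col a b).map _
  rwa [U.conj_cpow_X, U.conj_cpow_X, zero_add] at h

end Lines

/-- The full relations. -/
structure Full (U : RootSeed S u) : Prop where
  lines : Lines U
  st₁ : ∀ a b, U.X 1 2 a * U.X 2 0 b = U.X 1 0 (a * b) * U.X 2 0 b * U.X 1 2 a
  st₂ : ∀ a b, U.X 1 0 a * U.X 0 2 b = U.X 1 2 (a * b) * U.X 0 2 b * U.X 1 0 a

/-- An additive extension of the first root subgroup. -/
structure Ext (U : RootSeed S u) (Y : F → P) : Prop where
  add : ∀ a b, Y a * Y b = Y (a + b)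
  eq : ∀ s : Fˣ, Y s = U.X 0 1 s

namespace Ext

variable {U : RootSeed S u} {Y : F → P} (hY : Ext U Y)
include hY

theorem zero : Y 0 = 1 := by
  have := hY.add 0 0
  rwa [add_zero, mul_eq_left] at this

theorem rot_add (k : Fin 3) (a b : F) :
    MulAut.conj (S.c ^ k.val) (Y a) * MulAut.conj (S.c ^ k.val) (Y b) = MulAut.conj (S.c ^ k.val) (Y (a + b)) := by
  rw [← map_mul, hY.add]

theorem rot_eq (k : Fin 3) (s : Fˣ) : MulAut.conj (S.c ^ k.val) (Y s) = U.X k (1 + k) s := by
  rw [hY.eq, U.conj_cpow_X, zero_add]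

/-- A property of one argument closed under products spreads from cubes. -/
theorem spread (hq : Nat.card F ≠ 4) (k : Fin 3) (e : Fˣ) (y : P)
    (h : ∀ t : Fˣ, Commute (U.X k (1 + k) (e * t ^ 3)) y) (s : Fˣ) : Commute (U.X k (1 + k) s) y := by
  let T : AddSubgroup F :=
    { carrier := {r | Commute (MulAut.conj (S.c ^ k.val) (Y (e * r))) y}
      zero_mem' := by simp [hY.zero]
      add_mem' := fun {r s} hr hs => by
        show Commute (MulAut.conj (S.c ^ k.val) (Y (e * (r + s)))) y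
        rw [mul_add, ← hY.rot_add]
        exact hr.mul_left hs
      neg_mem' := fun {r} hr => by
        show Commute (MulAut.conj (S.c ^ k.val) (Y (e * -r))) y
        rw [mul_neg, eq_inv_of_mul_eq_one_left (show MulAut.conj (S.c ^ k.val) (Y (-((e : F) * r))) *
          MulAut.conj (S.c ^ k.val) (Y (e * r)) = 1 by
          rw [hY.rot_add, neg_add_cancel, hY.zero, map_one])]
        exact hr.inv_left }
  have hT : ((s : F) / e) ∈ T := by
    rw [addSubgroup_eq_top_of_cubes hq T fun t => by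
      show Commute (MulAut.conj (S.c ^ k.val) (Y ((e : F) * ((t ^ 3 : Fˣ) : F)))) y
      rw [← Units.val_mul, hY.rot_eq]
      exact h t]
    exact AddSubgroup.mem_top _
  have := (show Commute (MulAut.conj (S.c ^ k.val) (Y ((e : F) * ((s : F) / e)))) y from hT)
  rwa [mul_div_cancel₀ _ e.ne_zero, hY.rot_eq] at this

end Ext

/-- The relations at the value one (the class of cubes). -/
structure Base (U : RootSeed S u) : Prop where
  row : Commute (U.X 0 1 1) (U.X 0 2 1)
  col : Commute (U.X 0 2 1) (U.X 1 2 1)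
  st₂ : U.X 1 0 1 * U.X 0 2 1 = U.X 1 2 1 * U.X 0 2 1 * U.X 1 0 1

namespace Base

variable {U : RootSeed S u} (B : Base U)

theorem st₁_one : U.X 1 2 1 * U.X 2 0 1 = U.X 1 0 1 * U.X 2 0 1 * U.X 1 2 1 := by
  have h1 : U.X 1 2 1 = S.c * u * S.c⁻¹ := by
    have h := U.conj_cpow_X 0 1 1 1
    rw [U.X_seed] at h
    simpa [MulAut.conj_apply] using h.symm
  have h2 : U.X 2 0 1 = S.c ^ 2 * u * (S.c ^ 2)⁻¹ := by
    have h := U.conj_cpow_X 0 1 1 2
    rw [U.X_seed] at h
    exact h.symm.trans (MulAut.conj_apply _ _)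
  rw [U.X_seed_two, RootSeed.v, h1, h2]
  group

theorem st₁_class (a b d : Fˣ) (h : a / b = d ^ 3) :
    U.X 1 2 a * U.X 2 0 b = U.X 1 0 (a * b) * U.X 2 0 b * U.X 1 2 a := by
  obtain ⟨f, hf, e1, e2⟩ := exists_entries (F := F) 2 1 0 (by decide) (by decide) (by decide) a⁻¹ b d⁻¹
    (by rw [inv_pow, ← h, inv_div, div_eq_inv_mul])
  have hc := congrArg (MulAut.conj (U.torus.τ f)) U.ker₁.eq
  have hb := congrArg (MulAut.conj (U.torus.τ f)) (st₁_one (U := U))
  rw [map_mul, map_mul, map_mul, U.conj_τ_X hf (by decide), U.conj_τ_X hf (by decide),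
    U.conj_τ_X hf (by decide)] at hb
  have e3 : f 1 / f 2 = a := by rw [← inv_inv a, ← e1, inv_div]
  have e4 : f 1 / f 0 = a * b := by rw [← e3, ← e2, div_mul_div_cancel]
  rwa [e3, e4, e2, mul_one, mul_one, mul_one] at hb

include B

theorem row_class (a b d : Fˣ) (h : a * b = d ^ 3) : Commute (U.X 0 1 a) (U.X 0 2 b) := by
  obtain ⟨f, hf, e1, e2⟩ := exists_entries (F := F) 0 1 2 (by decide) (by decide) (by decide) a b d h
  have hc : Commute (MulAut.conj (U.torus.τ f) (U.X 0 1 1)) (MulAut.conj (U.torus.τ f) (U.X 0 2 1)) :=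
    B.row.map _
  rwa [U.conj_τ_X hf (by decide), U.conj_τ_X hf (by decide), e1, e2, mul_one, mul_one] at hc

theorem col_class (a b d : Fˣ) (h : a * b = d ^ 3) : Commute (U.X 0 2 a) (U.X 1 2 b) := by
  obtain ⟨f, hf, e1, e2⟩ := exists_entries (F := F) 2 0 1 (by decide) (by decide) (by decide) a⁻¹ b⁻¹ d⁻¹
    (by rw [inv_pow, ← h, mul_inv])
  have hc : Commute (MulAut.conj (U.torus.τ f) (U.X 0 2 1)) (MulAut.conj (U.torus.τ f) (U.X 1 2 1)) :=
    B.col.map _
  rwa [U.conj_τ_X hf (by decide), U.conj_τ_X hf (by decide), ← inv_div (f 2), e1, inv_inv,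
    ← inv_div (f 2), e2, inv_inv, mul_one, mul_one] at hc

theorem st₂_class (a b d : Fˣ) (h : a / b = d ^ 3) :
    U.X 1 0 a * U.X 0 2 b = U.X 1 2 (a * b) * U.X 0 2 b * U.X 1 0 a := by
  obtain ⟨f, hf, e1, e2⟩ := exists_entries (F := F) 0 1 2 (by decide) (by decide) (by decide) a⁻¹ b d⁻¹
    (by rw [inv_pow, ← h, inv_div, div_eq_inv_mul])
  have hb := congrArg (MulAut.conj (U.torus.τ f)) B.st₂
  rw [map_mul, map_mul, map_mul, U.conj_τ_X hf (by decide), U.conj_τ_X hf (by decide),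
    U.conj_τ_X hf (by decide)] at hb
  have e3 : f 1 / f 0 = a := by rw [← inv_inv a, ← e1, inv_div]
  have e4 : f 1 / f 2 = a * b := by rw [← e3, ← e2, div_mul_div_cancel]
  rwa [e3, e4, e2, mul_one, mul_one, mul_one] at hb

theorem self_cube (e d : Fˣ) (h : e = d ^ 3) : Commute (U.X 0 1 1) (U.X 0 1 e) := by
  have hs : U.X 0 2 e * U.X 2 1 1 = U.X 0 1 e * U.X 2 1 1 * U.X 0 2 e := by
    have := congrArg (MulAut.conj (S.c ^ (2 : Fin 3).val)) (B.st₂_class e 1 d (by rw [div_one, h]))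
    rw [map_mul, map_mul, map_mul, U.conj_cpow_X, U.conj_cpow_X, U.conj_cpow_X] at this
    simpa using this
  have h1 : Commute (U.X 0 1 1) (U.X 0 2 e) := B.row_class 1 e d (by rw [one_mul, h])
  have h2 : Commute (U.X 0 1 1) (U.X 2 1 1) := by
    have : Commute (MulAut.conj (S.c ^ (2 : Fin 3).val) (U.X 0 2 1))
        (MulAut.conj (S.c ^ (2 : Fin 3).val) (U.X 1 2 1)) := (B.col_class 1 1 1 (by simp)).map _
    rw [U.conj_cpow_X, U.conj_cpow_X] at this
    exact this.symm
  rw [show U.X 0 1 e = U.X 0 2 e * U.X 2 1 1 * (U.X 0 2 e)⁻¹ * (U.X 2 1 1)⁻¹ by rw [hs]; group]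
  exact ((h1.mul_right h2).mul_right h1.inv_right).mul_right h2.inv_right

omit B in
theorem scale01 (α s : Fˣ) :
    MulAut.conj (U.torus.τ ![α, 1, α⁻¹]) (U.X 0 1 s) = U.X 0 1 (α * s) := by
  rw [U.conj_τ_X (by simp) (by decide)]
  simp

theorem self (hgen : U.X 0 1 S.ξ ∈ Subgroup.closure {x | ∃ t, U.X 0 1 (t ^ 3) = x}) (a b : Fˣ) :
    Commute (U.X 0 1 a) (U.X 0 1 b) := by
  set C := Subgroup.closure {x | ∃ t, U.X 0 1 (t ^ 3) = x}
  haveI : IsMulCommutative C := Subgroup.isMulCommutative_closure (by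
    rintro _ ⟨s, rfl⟩ _ ⟨t, rfl⟩
    have h : Commute (MulAut.conj (U.torus.τ ![s ^ 3, 1, (s ^ 3)⁻¹]) (U.X 0 1 1))
        (MulAut.conj (U.torus.τ ![s ^ 3, 1, (s ^ 3)⁻¹]) (U.X 0 1 ((t / s) ^ 3))) :=
      (B.self_cube _ (t / s) rfl).map _
    rwa [scale01, scale01, mul_one, ← mul_pow, mul_div_cancel] at h)
  have hξ : ∀ x ∈ C, MulAut.conj (U.torus.τ ![S.ξ, 1, S.ξ⁻¹]) x ∈ C := by
    intro x hx
    have hle : C.map (MulAut.conj (U.torus.τ ![S.ξ, 1, S.ξ⁻¹])).toMonoidHom ≤ C := by
      rw [MonoidHom.map_closure, Subgroup.closure_le]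
      rintro _ ⟨_, ⟨t, rfl⟩, rfl⟩
      rw [SetLike.mem_coe, MulEquiv.coe_toMonoidHom, scale01]
      have h2 : ∀ x ∈ C, MulAut.conj (U.torus.τ ![t ^ 3, 1, (t ^ 3)⁻¹]) x ∈ C := by
        intro x hx
        have hle : C.map (MulAut.conj (U.torus.τ ![t ^ 3, 1, (t ^ 3)⁻¹])).toMonoidHom ≤ C := by
          rw [MonoidHom.map_closure, Subgroup.closure_le]
          rintro _ ⟨_, ⟨r, rfl⟩, rfl⟩
          rw [SetLike.mem_coe, MulEquiv.coe_toMonoidHom, scale01, ← mul_pow]
          exact Subgroup.subset_closure ⟨_, rfl⟩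
        exact hle ⟨x, hx, rfl⟩
      have := h2 _ hgen
      rwa [scale01, mul_comm] at this
    exact hle ⟨x, hx, rfl⟩
  have hall : ∀ s, U.X 0 1 s ∈ C := by
    intro s
    obtain ⟨r, rfl⟩ := (isOfFinOrder_of_finite S.ξ).mem_powers_iff_mem_zpowers.2 (S.hξ s)
    induction r with
    | zero => exact Subgroup.subset_closure ⟨1, by simp⟩
    | succ r ih =>
      have := hξ _ ih
      rwa [scale01, ← pow_succ'] at this
  exact congrArg Subtype.val (mul_comm' (⟨_, hall a⟩ : C) ⟨_, hall b⟩)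

theorem lines (hq : Nat.card F ≠ 4) {Y : F → P} (hY : Ext U Y)
    (hself : ∀ a b, Commute (U.X 0 1 a) (U.X 0 1 b)) : Lines U := by
  refine ⟨hself, fun a b => ?_, fun a b => ?_⟩
  · exact hY.spread hq 0 b⁻¹ _ (fun t => B.row_class _ _ t (by rw [mul_comm (b⁻¹), mul_assoc, inv_mul_cancel, mul_one])) a
  · exact (hY.spread hq 1 a⁻¹ _ (fun t => (B.col_class _ _ t (by rw [← mul_assoc, mul_inv_cancel, one_mul])).symm) b).symm

theorem full (hq : Nat.card F ≠ 4) {Y : F → P} (hY : Ext U Y) (L : Lines U) : Full U := by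
  classical
  set A : F → P := fun a => MulAut.conj (S.c ^ (1 : Fin 3).val) (Y a)
  set Bb : F → P := fun b => MulAut.conj (S.c ^ (2 : Fin 3).val) (Y b)
  have hA : ∀ a b, A a * A b = A (a + b) := hY.rot_add 1
  have hB : ∀ a b, Bb a * Bb b = Bb (a + b) := hY.rot_add 2
  have hA' : ∀ s : Fˣ, A s = U.X 1 2 s := fun s => hY.rot_eq 1 s
  have hB' : ∀ s : Fˣ, Bb s = U.X 2 0 s := fun s => hY.rot_eq 2 s
  have hA0 : A 0 = 1 := by simp [A, hY.zero]
  have hB0 : Bb 0 = 1 := by simp [Bb, hY.zero]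
  set Z := Subgroup.closure (Set.range (U.X 1 0))
  have hc : ∀ z ∈ Z, ∀ a, Commute (A a) z ∧ Commute (Bb a) z := by
    intro z hz a
    have hle : Z ≤ Subgroup.centralizer {A a, Bb a} := by
      rw [Subgroup.closure_le]
      rintro _ ⟨s, rfl⟩
      rw [SetLike.mem_coe, Subgroup.mem_centralizer_iff]
      rintro w (rfl | rfl)
      · rcases eq_or_ne a 0 with rfl | ha
        · simp [hA0]
        · rw [← Units.val_mk0 ha, hA']
          exact (L.row_any 1 _ s).eq
      · rcases eq_or_ne a 0 with rfl | ha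
        · simp [hB0]
        · rw [← Units.val_mk0 ha, hB']
          exact ((L.col_any 1 s (Units.mk0 a ha)).symm).eq
    have := hle hz
    rw [Subgroup.mem_centralizer_iff] at this
    exact ⟨this _ (Set.mem_insert _ _), this _ (Set.mem_insert_of_mem _ rfl)⟩
  let D : F → F → P := fun a b => A a * Bb b * (A a)⁻¹ * (Bb b)⁻¹
  have hD : ∀ (a b d : Fˣ), a / b = d ^ 3 → D a b = U.X 1 0 (a * b) := fun a b d h => by
    show A a * Bb b * (A a)⁻¹ * (Bb b)⁻¹ = _
    rw [hA', hB', st₁_class a b d h]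
    group
  have hD0 : ∀ b, D 0 b = 1 := fun b => by simp [D, hA0]
  have hD0' : ∀ a, D a 0 = 1 := fun a => by simp [D, hB0]
  have hadd : ∀ a a' b, D a' b ∈ Z → D (a + a') b = D a' b * D a b := fun a a' b h => by
    show A (a + a') * Bb b * (A (a + a'))⁻¹ * (Bb b)⁻¹ = _
    rw [← hA, mul_inv_rev]
    have := ((hc _ h a).1).eq
    calc A a * A a' * Bb b * ((A a')⁻¹ * (A a)⁻¹) * (Bb b)⁻¹
        = A a * (D a' b) * Bb b * (A a)⁻¹ * (Bb b)⁻¹ := by simp only [D]; group
      _ = D a' b * D a b := by rw [this]; simp only [D]; group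
  have hneg : ∀ a b, D a b ∈ Z → D (-a) b ∈ Z := fun a b h => by
    have := hadd (-a) a b h
    rw [neg_add_cancel, hD0] at this
    rw [eq_inv_of_mul_eq_one_right this.symm]
    exact Z.inv_mem h
  -- every value lies in the second root subgroup
  have hmem : ∀ a b, D a b ∈ Z := by
    intro a b
    rcases eq_or_ne b 0 with rfl | hb
    · rw [hD0']; exact Z.one_mem
    set bu := Units.mk0 b hb
    let T : AddSubgroup F :=
      { carrier := {r | D (b * r) b ∈ Z}
        zero_mem' := by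
          show D (b * 0) b ∈ Z
          rw [mul_zero, hD0]; exact Z.one_mem
        add_mem' := fun {r s} hr hs => by
          show D (b * (r + s)) b ∈ Z
          rw [mul_add, hadd _ _ _ hs]
          exact Z.mul_mem hs hr
        neg_mem' := fun {r} hr => by
          show D (b * -r) b ∈ Z
          rw [mul_neg]
          exact hneg _ _ hr }
    have hT : a / b ∈ T := by
      rw [addSubgroup_eq_top_of_cubes hq T fun t => by
        show D (b * ((t ^ 3 : Fˣ) : F)) b ∈ Z
        have := hD (bu * t ^ 3) bu t (mul_div_cancel_left bu _)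
        rw [Units.val_mul, Units.val_mk0] at this
        rw [this]
        exact Subgroup.subset_closure ⟨_, rfl⟩]
      exact AddSubgroup.mem_top _
    have := (show D (b * (a / b)) b ∈ Z from hT)
    rwa [mul_div_cancel₀ _ hb] at this
  have hZc : ∀ x ∈ Z, ∀ y ∈ Z, Commute x y := by
    intro x hx y hy
    have hgenD : Set.range (U.X 1 0) ⊆ Set.range (fun ab : F × F => D ab.1 ab.2) := by
      rintro _ ⟨s, rfl⟩
      refine ⟨(((s ^ 2 : Fˣ) : F), ((s⁻¹ : Fˣ) : F)), ?_⟩
      refine (hD (s ^ 2) s⁻¹ s (by rw [div_inv_eq_mul, ← pow_succ])).trans ?_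
      rw [sq, mul_inv_cancel_right]
    refine (show x ∈ Subgroup.centralizer {y} from ?_) y rfl |>.symm
    refine (Subgroup.closure_le _).2 ?_ hx
    intro w hw
    obtain ⟨⟨a, b⟩, rfl⟩ := hgenD hw
    rw [SetLike.mem_coe, Subgroup.mem_centralizer_singleton_iff]
    exact ((((hc y hy a).1.mul_left (hc y hy b).2).mul_left (hc y hy a).1.inv_left).mul_left
      (hc y hy b).2.inv_left).eq
  have haddl : ∀ a a' b, D (a + a') b = D a b * D a' b := fun a a' b => by
    rw [hadd a a' b (hmem _ _)]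
    exact (hZc _ (hmem _ _) _ (hmem _ _)).eq
  have haddr : ∀ a b b', D a (b + b') = D a b * D a b' := fun a b b' => by
    show A a * Bb (b + b') * (A a)⁻¹ * (Bb (b + b'))⁻¹ = _
    rw [← hB, mul_inv_rev]
    have := ((hc _ (hmem a b') b).2).eq
    calc A a * (Bb b * Bb b') * (A a)⁻¹ * ((Bb b')⁻¹ * (Bb b)⁻¹)
        = D a b * (Bb b * D a b' * (Bb b)⁻¹) := by simp only [D]; group
      _ = D a b * D a b' := by rw [this, mul_inv_cancel_right]
  -- balanced in cubes, hence in everything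
  have hext : ∀ (f g : F → P), (∀ r s, f (r + s) = f r * f s) → (∀ r s, g (r + s) = g r * g s) →
      ∀ b : F, (∀ t : Fˣ, f (b * ((t ^ 3 : Fˣ) : F)) = g (b * ((t ^ 3 : Fˣ) : F))) →
      b ≠ 0 → ∀ a, f a = g a := by
    intro f g hf hg b h hb a
    have hf0 : f 0 = 1 := by have := hf 0 0; rwa [add_zero, right_eq_mul] at this
    have hg0 : g 0 = 1 := by have := hg 0 0; rwa [add_zero, right_eq_mul] at this
    let T : AddSubgroup F :=
      { carrier := {r | f (b * r) = g (b * r)}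
        zero_mem' := by simp [hf0, hg0]
        add_mem' := fun {r s} hr hs => by
          show f (b * (r + s)) = g (b * (r + s))
          rw [mul_add, hf, hg, hr, hs]
        neg_mem' := fun {r} hr => by
          show f (b * -r) = g (b * -r)
          rw [mul_neg, eq_inv_of_mul_eq_one_left (show f (-(b * r)) * f (b * r) = 1 by
              rw [← hf, neg_add_cancel, hf0]),
            eq_inv_of_mul_eq_one_left (show g (-(b * r)) * g (b * r) = 1 by
              rw [← hg, neg_add_cancel, hg0]), hr] }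
    have hT : a / b ∈ T := by
      rw [addSubgroup_eq_top_of_cubes hq T h]; exact AddSubgroup.mem_top _
    have := (show f (b * (a / b)) = g (b * (a / b)) from hT)
    rwa [mul_div_cancel₀ _ hb] at this
  have hbal : ∀ a b c, D (c * a) b = D a (c * b) := by
    intro a b c
    rcases eq_or_ne b 0 with rfl | hb
    · simp [hD0']
    refine hext (fun c => D (c * a) b) (fun c => D a (c * b))
      (fun r s => by rw [add_mul, haddl]) (fun r s => by rw [add_mul, haddr]) 1 (fun t => ?_) one_ne_zero c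
    rw [one_mul]
    refine hext (fun a => D (((t ^ 3 : Fˣ) : F) * a) b) (fun a => D a (((t ^ 3 : Fˣ) : F) * b))
      (fun r s => by rw [mul_add, haddl]) (fun r s => by rw [haddl]) b (fun r => ?_) hb a
    set bu := Units.mk0 b hb
    have h1 := hD (t ^ 3 * (bu * r ^ 3)) bu (t * r) (by
      rw [mul_div_assoc, mul_div_cancel_left, mul_pow])
    have h2 := hD (bu * r ^ 3) (t ^ 3 * bu) (r / t) (by
      rw [div_pow, mul_comm (t ^ 3), mul_div_mul_left_eq_div])
    simp only [Units.val_mul, bu, Units.val_mk0] at h1 h2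
    rw [h1, h2]
    congr 1
    ac_rfl
  have hval : ∀ (a b : Fˣ), D a b = U.X 1 0 (a * b) := fun a b => by
    have e1 : D a b = D 1 ((a : F) * b) := by
      have := hbal 1 b a
      rwa [mul_one] at this
    have e2 := hD ((a * b) ^ 2) (a * b)⁻¹ (a * b) (by rw [div_inv_eq_mul, ← pow_succ])
    rw [sq, mul_inv_cancel_right] at e2
    rw [e1, ← e2]
    have e3 := hbal 1 (((a * b)⁻¹ : Fˣ) : F) (((a * b) * (a * b) : Fˣ) : F)
    rw [mul_one, ← Units.val_mul, mul_inv_cancel_right, Units.val_mul] at e3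
    exact e3.symm
  have hX10add : ∀ t : Fˣ, U.X 1 0 t = D t 1 := fun t => by
    have := hval t 1
    rw [Units.val_one, mul_one] at this
    exact this.symm
  refine ⟨L, fun a b => ?_, fun a b => ?_⟩
  · rw [← hA', ← hB', ← hval]
    simp only [D]
    group
  · -- additive in the first argument
    have hr1 : ∀ x y, Commute (A x) (D y 1) := fun x y => (hc _ (hmem y 1) x).1
    let Q : AddSubgroup F :=
      { carrier := {r | D (r * b) 1 * U.X 0 2 b = A (r * b * b) * U.X 0 2 b * D (r * b) 1}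
        zero_mem' := by simp [hD0, hA0]
        add_mem' := fun {r s} hr hs => by
          show D ((r + s) * b) 1 * U.X 0 2 b = A ((r + s) * b * b) * U.X 0 2 b * D ((r + s) * b) 1
          rw [add_mul, haddl, add_mul, ← hA,
            show D (r * b) 1 * D (s * b) 1 * U.X 0 2 b = D (r * b) 1 * (D (s * b) 1 * U.X 0 2 b) from
              mul_assoc _ _ _, hs]
          calc D (r * b) 1 * (A (s * b * b) * U.X 0 2 b * D (s * b) 1)
              = A (s * b * b) * (D (r * b) 1 * U.X 0 2 b) * D (s * b) 1 := by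
                exact swap_left (hr1 (s * (b : F) * b) (r * b)) _ _
            _ = A (r * b * b) * A (s * b * b) * U.X 0 2 b * (D (r * b) 1 * D (s * b) 1) := by
                rw [hr, hA, add_comm, ← hA]; group
        neg_mem' := fun {r} hr => by
          show D (-r * b) 1 * U.X 0 2 b = A (-r * b * b) * U.X 0 2 b * D (-r * b) 1
          have e1 : D (-r * b) 1 = (D (r * b) 1)⁻¹ := eq_inv_of_mul_eq_one_left (by
            rw [← haddl, ← add_mul, neg_add_cancel, zero_mul, hD0])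
          have e2 : A (-r * b * b) = (A (r * b * b))⁻¹ := eq_inv_of_mul_eq_one_left (by
            rw [hA, ← add_mul, ← add_mul, neg_add_cancel, zero_mul, zero_mul, hA0])
          have hh : U.X 0 2 b = (A (r * b * b))⁻¹ * (D (r * b) 1 * U.X 0 2 b * (D (r * b) 1)⁻¹) := by
            rw [hr]; group
          rw [e1, e2]
          calc (D (r * b) 1)⁻¹ * U.X 0 2 b
              = (D (r * b) 1)⁻¹ * ((A (r * b * b))⁻¹ * (D (r * b) 1 * U.X 0 2 b * (D (r * b) 1)⁻¹)) := by
                rw [← hh]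
            _ = _ := by rw [← mul_assoc, (hr1 (r * (b : F) * b) (r * b)).inv_inv.symm.eq]; group }
    have hQ : ((a : F) / b) ∈ Q := by
      rw [addSubgroup_eq_top_of_cubes hq Q fun t => ?_]
      · exact AddSubgroup.mem_top _
      show D (((t ^ 3 : Fˣ) : F) * b) 1 * U.X 0 2 b = A (((t ^ 3 : Fˣ) : F) * b * b) * U.X 0 2 b * D (((t ^ 3 : Fˣ) : F) * b) 1
      rw [← Units.val_mul, ← hX10add, ← Units.val_mul, hA']
      exact B.st₂_class _ _ t (mul_div_cancel_right _ _)
    have := (show D ((a : F) / b * b) 1 * U.X 0 2 b = A ((a : F) / b * b * b) * U.X 0 2 b * D ((a : F) / b * b) 1 from hQ)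
    rwa [div_mul_cancel₀ _ b.ne_zero, ← hX10add, ← Units.val_mul, hA'] at this

end Base

namespace Full

variable {U : RootSeed S u} (R : Full U)
include R

/-- The root elements form a Steinberg system. -/
theorem exists_sys {Y : F → P} (hY : Ext U Y) : ∃ Z : Fin 3 → Fin 3 → F → P,
    Spec.StPres.Sys F 3 Z ∧ ∀ i j, i ≠ j → ∀ s : Fˣ, Z i j s = U.X i j s := by
  classical
  let W : F → P := fun a => MulAut.conj (S.c ^ (1 : Fin 3).val) (Y a) *
    U.X 2 0 1 * (MulAut.conj (S.c ^ (1 : Fin 3).val) (Y a))⁻¹ * (U.X 2 0 1)⁻¹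
  have hW : ∀ s : Fˣ, W s = U.X 1 0 s := fun s => by
    show _ * _ * _ * _ = _
    rw [hY.rot_eq, show (1 : Fin 3) + 1 = 2 from rfl, R.st₁ s 1, mul_one]
    group
  have hWadd : ∀ a b, W a * W b = W (a + b) := by
    intro a b
    have hcomm : ∀ a b, Commute (MulAut.conj (S.c ^ (1 : Fin 3).val) (Y a)) (W b) ∧ Commute (U.X 2 0 1) (W b) := by
      intro a b
      rcases eq_or_ne b 0 with rfl | hb
      · simp [W, hY.zero]
      rw [← Units.val_mk0 hb, hW]
      refine ⟨?_, (R.lines.col_any 1 (Units.mk0 b hb) 1).symm⟩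
      rcases eq_or_ne a 0 with rfl | ha
      · simp [hY.zero]
      rw [← Units.val_mk0 ha, hY.rot_eq]
      exact R.lines.row_any 1 _ _
    have hWW : Commute (W a) (W b) := by
      have h1 := (hcomm a b).1
      have h2 := (hcomm a b).2
      exact ((h1.mul_left h2).mul_left h1.inv_left).mul_left h2.inv_left
    show _ = MulAut.conj (S.c ^ (1 : Fin 3).val) (Y (a + b)) * _ * (MulAut.conj (S.c ^ (1 : Fin 3).val) (Y (a + b)))⁻¹ * _
    rw [← hY.rot_add 1 a b, hWW.eq, mul_inv_rev]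
    calc W b * W a
        = W b * (MulAut.conj (S.c ^ (1 : Fin 3).val) (Y a) * U.X 2 0 1 *
            (MulAut.conj (S.c ^ (1 : Fin 3).val) (Y a))⁻¹ * (U.X 2 0 1)⁻¹) := rfl
      _ = MulAut.conj (S.c ^ (1 : Fin 3).val) (Y a) * W b * U.X 2 0 1 *
            (MulAut.conj (S.c ^ (1 : Fin 3).val) (Y a))⁻¹ * (U.X 2 0 1)⁻¹ := by
          rw [(hcomm a b).1.eq]; group
      _ = _ := by simp only [W]; group
  let Z : Fin 3 → Fin 3 → F → P := fun i j a =>
    if j = i + 1 then MulAut.conj (S.c ^ i.val) (Y a) else MulAut.conj (S.c ^ j.val) (W a)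
  have hZ : ∀ i j, i ≠ j → ∀ s : Fˣ, Z i j s = U.X i j s := fun i j hij s => by
    simp only [Z]
    split_ifs with h
    · rw [hY.rot_eq, h, add_comm]
    · rw [hW, U.conj_cpow_X, zero_add]
      congr 1
      fin_cases i <;> fin_cases j <;> first | rfl | exact absurd rfl hij | exact absurd rfl h
  have hadd : ∀ i j, i ≠ j → ∀ a b, Z i j a * Z i j b = Z i j (a + b) := fun i j _ a b => by
    simp only [Z]
    split_ifs
    · exact hY.rot_add _ _ _
    · rw [← map_mul, hWadd]
  have h0 : ∀ i j, i ≠ j → Z i j 0 = 1 := fun i j h => by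
    have := hadd i j h 0 0
    rwa [add_zero, mul_eq_left] at this
  have hst : ∀ i j l, i ≠ j → j ≠ l → i ≠ l → ∀ a b : Fˣ,
      U.X i j a * U.X j l b = U.X i l (a * b) * U.X j l b * U.X i j a := by
    intro i j l hij hjl hil a b
    have hf : ∀ i j l : Fin 3, i ≠ j → j ≠ l → i ≠ l →
        ((i = 1 + (i + 2) ∧ j = 2 + (i + 2) ∧ l = 0 + (i + 2)) ∨
          (i = 1 + (i + 2) ∧ j = 0 + (i + 2) ∧ l = 2 + (i + 2))) := by decide
    rcases hf i j l hij hjl hil with ⟨e1, e2, e3⟩ | ⟨e1, e2, e3⟩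
    · have h := congrArg (MulAut.conj (S.c ^ (i + 2).val)) (R.st₁ a b)
      simp only [map_mul, U.conj_cpow_X, ← e1, ← e2, ← e3] at h
      exact h
    · have h := congrArg (MulAut.conj (S.c ^ (i + 2).val)) (R.st₂ a b)
      simp only [map_mul, U.conj_cpow_X, ← e1, ← e2, ← e3] at h
      exact h
  refine ⟨Z, ⟨hadd, fun i j k l hij hkl hil hjk a b => ?_, fun i j l hij hjl hil a b => ?_⟩, hZ⟩
  · rcases eq_or_ne a 0 with rfl | ha
    · simp [h0 i j hij]
    rcases eq_or_ne b 0 with rfl | hb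
    · simp [h0 k l hkl]
    by_cases hsame : i = k ∧ j = l
    · obtain ⟨rfl, rfl⟩ := hsame
      rw [hadd i j hij, hadd i j hij, add_comm]
    rw [← Units.val_mk0 ha, ← Units.val_mk0 hb, hZ i j hij, hZ k l hkl]
    have hf : ∀ i j k l : Fin 3, i ≠ j → k ≠ l → i ≠ l → j ≠ k → ¬(i = k ∧ j = l) →
        (k = i ∧ ((j = 1 + i ∧ l = 2 + i) ∨ (j = 2 + i ∧ l = 1 + i))) ∨
        (l = 2 + (j + 1) ∧ j = 2 + (j + 1) ∧
          ((i = j + 1 ∧ k = 1 + (j + 1)) ∨ (i = 1 + (j + 1) ∧ k = j + 1))) := by decide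
    rcases hf i j k l hij hkl hil hjk hsame with ⟨e, ⟨e1, e2⟩ | ⟨e1, e2⟩⟩ | ⟨el, ej, ⟨e1, e2⟩ | ⟨e1, e2⟩⟩
    · rw [e, e1, e2]; exact (R.lines.row_any i _ _).eq
    · rw [e, e1, e2]; exact (R.lines.row_any i _ _).symm.eq
    · have h := R.lines.col_any (j + 1) (Units.mk0 a ha) (Units.mk0 b hb)
      rw [← ej, ← e2, ← e1] at h
      have e : l = j := el.trans ej.symm
      rw [e]
      exact h.eq
    · have h := R.lines.col_any (j + 1) (Units.mk0 b hb) (Units.mk0 a ha)
      rw [← ej, ← e1, ← e2] at h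
      have e : l = j := el.trans ej.symm
      rw [e]
      exact h.symm.eq
  · rcases eq_or_ne a 0 with rfl | ha
    · simp [h0 i j hij, h0 i l hil]
    rcases eq_or_ne b 0 with rfl | hb
    · simp [h0 j l hjl, h0 i l hil]
    rw [← Units.val_mk0 ha, ← Units.val_mk0 hb, ← Units.val_mul, hZ i j hij, hZ i l hil, hZ j l hjl]
    exact hst i j l hij hjl hil _ _

end Full

end Cfsg.Agent.ShortPres.Three
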