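import Mathlib

/-!
Degree three: a cyclic symmetry and a torus.
-/

set_option autoImplicit false

namespace Cfsg.Agent.ShortPres.Three

variable {F : Type*} [Field F] [Finite F] {P : Type*} [Group P]

/-- A generator of the multiplicative group, an element `c` of order three and a torus element. -/
structure Seed (F : Type*) [Field F] [Finite F] (P : Type*) [Group P] where
  ξ : Fˣ
  hξ : ∀ a : Fˣ, a ∈ Subgroup.zpowers ξ
  c : P
  h : P
  hc : c ^ 3 = 1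
  hN : h ^ Nat.card Fˣ = 1

namespace Seed

variable (S : Seed F P)

/-- The first torus. -/
noncomputable def φ₀ : Fˣ →* P :=
  monoidHomOfForallMemZpowers S.hξ (g' := S.h) <| by
    rw [orderOf_eq_card_of_forall_mem_zpowers S.hξ]
    exact orderOf_dvd_of_pow_eq_one S.hN

theorem φ₀_gen : S.φ₀ S.ξ = S.h := monoidHomOfForallMemZpowers_apply_gen _ _

/-- The three tori. -/
noncomputable def φ (i : Fin 3) : Fˣ →* P :=
  (MulAut.conj (S.c ^ i.val)).toMonoidHom.comp S.φ₀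

theorem φ_apply (i : Fin 3) (a : Fˣ) : S.φ i a = MulAut.conj (S.c ^ i.val) (S.φ₀ a) := rfl

theorem φ_zero_gen : S.φ 0 S.ξ = S.h := by
  rw [φ_apply, φ₀_gen]
  simp

theorem c_pow_add (i : Fin 3) (k : ℕ) (j : Fin 3) (h : (i.val + k) % 3 = j.val) :
    S.c ^ k * S.c ^ i.val = S.c ^ j.val := by
  rw [← pow_add, pow_eq_pow_mod _ S.hc, Nat.add_comm, h]

theorem conj_φ (i : Fin 3) (a : Fˣ) : MulAut.conj S.c (S.φ i a) = S.φ (i + 1) a := by
  rw [φ_apply, φ_apply, ← MulAut.mul_apply, ← map_mul]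
  have := S.c_pow_add i 1 (i + 1) (by fin_cases i <;> rfl)
  rw [pow_one] at this
  rw [this]

theorem commute_of_gen {f g : Fˣ →* P} (h : Commute (f S.ξ) (g S.ξ)) (a b : Fˣ) : Commute (f a) (g b) := by
  obtain ⟨k, rfl⟩ := Subgroup.mem_zpowers_iff.1 (S.hξ a)
  obtain ⟨l, rfl⟩ := Subgroup.mem_zpowers_iff.1 (S.hξ b)
  rw [map_zpow, map_zpow]
  exact h.zpow_zpow k l

theorem ext_gen {M : Type*} [Monoid M] {f g : Fˣ →* M} (h : f S.ξ = g S.ξ) : f = g := by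
  refine MonoidHom.ext fun a => ?_
  obtain ⟨k, rfl⟩ := (isOfFinOrder_of_finite S.ξ).mem_powers_iff_mem_zpowers.2 (S.hξ a)
  simp [map_pow, h]

end Seed

/-- The two relations making a torus. -/
structure TorusRels (S : Seed F P) : Prop where
  comm : Commute (S.φ 0 S.ξ) (S.φ 1 S.ξ)
  prod : S.φ 0 S.ξ * S.φ 1 S.ξ * S.φ 2 S.ξ = 1

namespace TorusRels

variable {S : Seed F P} (R : TorusRels S)
include R

theorem φ_two (a : Fˣ) : S.φ 2 a = (S.φ 0 a * S.φ 1 a)⁻¹ := by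
  obtain ⟨k, rfl⟩ := Subgroup.mem_zpowers_iff.1 (S.hξ a)
  rw [map_zpow, map_zpow, map_zpow, ← R.comm.mul_zpow, ← inv_zpow]
  congr 1
  exact eq_inv_of_mul_eq_one_right R.prod

/-- The torus of diagonal matrices of determinant one. -/
noncomputable def τ : (Fin 3 → Fˣ) →* P where
  toFun f := S.φ 0 (f 0) * S.φ 1 (f 0 * f 1)
  map_one' := by simp
  map_mul' f g := by
    rw [Pi.mul_apply, Pi.mul_apply, map_mul (S.φ 0), show f 0 * g 0 * (f 1 * g 1) = f 0 * f 1 * (g 0 * g 1) by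
      rw [mul_mul_mul_comm], map_mul (S.φ 1)]
    exact Commute.mul_mul_mul_comm (S.commute_of_gen R.comm _ _) _ _

theorem τ_apply (f : Fin 3 → Fˣ) : R.τ f = S.φ 0 (f 0) * S.φ 1 (f 0 * f 1) := rfl

theorem conj_τ {f : Fin 3 → Fˣ} (hf : f 0 * f 1 * f 2 = 1) :
    MulAut.conj S.c (R.τ f) = R.τ (fun x => f (x + 2)) := by
  rw [R.τ_apply, R.τ_apply, map_mul, S.conj_φ, S.conj_φ]
  show S.φ 1 (f 0) * S.φ 2 (f 0 * f 1) = S.φ 0 (f 2) * S.φ 1 (f 2 * f 0)
  rw [show f 2 = (f 0 * f 1)⁻¹ from eq_inv_of_mul_eq_one_right hf, R.φ_two]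
  simp only [map_mul, map_inv, mul_inv_rev]
  have c01 := fun a b : Fˣ => S.commute_of_gen (f := S.φ 0) (g := S.φ 1) R.comm a b
  have c11 := fun a b : Fˣ => (Commute.all a b).map (S.φ 1)
  have c00 := fun a b : Fˣ => (Commute.all a b).map (S.φ 0)
  -- a computation inside an abelian subgroup
  let U := Subgroup.closure (Set.range (S.φ 0) ∪ Set.range (S.φ 1))
  haveI : IsMulCommutative U := Subgroup.isMulCommutative_closure (by
    rintro _ (⟨a, rfl⟩ | ⟨a, rfl⟩) _ (⟨b, rfl⟩ | ⟨b, rfl⟩)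
    · exact c00 a b
    · exact c01 a b
    · exact (c01 b a).symm
    · exact c11 a b)
  let a0 : Fˣ → U := fun a => ⟨S.φ 0 a, Subgroup.subset_closure (Or.inl ⟨a, rfl⟩)⟩
  let a1 : Fˣ → U := fun a => ⟨S.φ 1 a, Subgroup.subset_closure (Or.inr ⟨a, rfl⟩)⟩
  letI : CommGroup U := { (inferInstance : Group U) with mul_comm := fun a b => mul_comm' a b }
  have key : a1 (f 0) * ((a1 (f 1))⁻¹ * (a1 (f 0))⁻¹ * ((a0 (f 1))⁻¹ * (a0 (f 0))⁻¹)) =
      ((a0 (f 1))⁻¹ * (a0 (f 0))⁻¹) * ((a1 (f 1))⁻¹ * (a1 (f 0))⁻¹ * a1 (f 0)) := by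
    ac_rfl
  exact congrArg Subtype.val key

end TorusRels

/-- A root element with its kernel. -/
structure RootSeed (S : Seed F P) (u : P) : Prop where
  torus : TorusRels S
  ker₁ : Commute (S.φ 0 S.ξ * S.φ 1 S.ξ ^ 2) u
  ker₂ : Commute (S.φ 0 S.ξ * S.φ 1 S.ξ ^ 2)
    (S.c * u * S.c⁻¹ * (S.c ^ 2 * u * (S.c ^ 2)⁻¹) * (S.c * u * S.c⁻¹)⁻¹ * (S.c ^ 2 * u * (S.c ^ 2)⁻¹)⁻¹)

namespace RootSeed

variable {S : Seed F P} {u : P} (U : RootSeed S u)

/-- The seed of the second orbit of roots. -/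
@[nolint unusedArguments]
def v (_ : RootSeed S u) : P :=
  S.c * u * S.c⁻¹ * (S.c ^ 2 * u * (S.c ^ 2)⁻¹) * (S.c * u * S.c⁻¹)⁻¹ * (S.c ^ 2 * u * (S.c ^ 2)⁻¹)⁻¹

include U

theorem ker_τ {f : Fin 3 → Fˣ} (h01 : f 0 = f 1) {y : P}
    (hy : Commute (S.φ 0 S.ξ * S.φ 1 S.ξ ^ 2) y) : Commute (U.torus.τ f) y := by
  obtain ⟨k, hk⟩ := Subgroup.mem_zpowers_iff.1 (S.hξ (f 0))
  rw [U.torus.τ_apply, ← h01, ← hk, ← sq, ← zpow_natCast (S.ξ ^ k), ← zpow_mul, map_zpow, map_zpow,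
    mul_comm k, zpow_mul, zpow_natCast, ← (U.torus.comm.pow_right 2).mul_zpow]
  exact hy.zpow_left k

/-- The root elements. -/
noncomputable def X (i j : Fin 3) (s : Fˣ) : P :=
  if j = i + 1 then MulAut.conj (S.c ^ i.val) (MulAut.conj (U.torus.τ ![s, 1, s⁻¹]) u)
  else if i = j + 1 then MulAut.conj (S.c ^ j.val) (MulAut.conj (U.torus.τ ![1, s, s⁻¹]) U.v)
  else 1

theorem X01 (s : Fˣ) : U.X 0 1 s = MulAut.conj (U.torus.τ ![s, 1, s⁻¹]) u := by
  simp [X]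

theorem X10 (s : Fˣ) : U.X 1 0 s = MulAut.conj (U.torus.τ ![1, s, s⁻¹]) U.v := by
  simp [X]

theorem conj_c_X (i j : Fin 3) (s : Fˣ) : MulAut.conj S.c (U.X i j s) = U.X (i + 1) (j + 1) s := by
  have hpow : ∀ k : Fin 3, MulAut.conj S.c ∘ MulAut.conj (S.c ^ k.val) = MulAut.conj (S.c ^ (k + 1).val) := by
    intro k
    funext x
    have := S.c_pow_add k 1 (k + 1) (by fin_cases k <;> rfl)
    rw [pow_one] at this
    rw [Function.comp_apply, ← MulAut.mul_apply, ← map_mul, this]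
  simp only [X, add_left_inj]
  split_ifs
  · exact congrFun (hpow i) _
  · exact congrFun (hpow j) _
  · exact map_one _

theorem conj_cpow_X (i j : Fin 3) (s : Fˣ) (k : Fin 3) :
    MulAut.conj (S.c ^ k.val) (U.X i j s) = U.X (i + k) (j + k) s := by
  fin_cases k
  · simp
  · simp [U.conj_c_X]
  · show MulAut.conj (S.c ^ 2) (U.X i j s) = U.X (i + 2) (j + 2) s
    rw [pow_two, map_mul, MulAut.mul_apply, U.conj_c_X, U.conj_c_X, add_assoc, add_assoc]
    rfl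

theorem conj_τ_base {g : Fin 3 → Fˣ} {y : P} (hy : Commute (S.φ 0 S.ξ * S.φ 1 S.ξ ^ 2) y)
    {e f : Fin 3 → Fˣ} (hef : g 0 * e 0 * f 1 = g 1 * e 1 * f 0) :
    MulAut.conj (U.torus.τ g) (MulAut.conj (U.torus.τ e) y) = MulAut.conj (U.torus.τ f) y := by
  have hk : MulAut.conj (U.torus.τ (f⁻¹ * (g * e))) y = y := by
    rw [MulAut.conj_apply, (U.ker_τ ?_ hy).eq, mul_inv_cancel_right]
    simp only [Pi.mul_apply, Pi.inv_apply]
    rw [inv_mul_eq_div, inv_mul_eq_div, div_eq_div_iff_mul_eq_mul]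
    exact hef
  conv_rhs => rw [← hk, ← MulAut.mul_apply, ← map_mul, ← map_mul, mul_inv_cancel_left]
  rw [← MulAut.mul_apply, ← map_mul, ← map_mul]

theorem conj_τ_X {g : Fin 3 → Fˣ} (hg : g 0 * g 1 * g 2 = 1) {i j : Fin 3} (hij : i ≠ j) (s : Fˣ) :
    MulAut.conj (U.torus.τ g) (U.X i j s) = U.X i j (g i / g j * s) := by
  have h01 : ∀ g : Fin 3 → Fˣ, ∀ s, MulAut.conj (U.torus.τ g) (U.X 0 1 s) = U.X 0 1 (g 0 / g 1 * s) :=
    fun g s => by
      rw [U.X01, U.X01]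
      exact U.conj_τ_base U.ker₁ (by simp [mul_comm, mul_left_comm, div_eq_mul_inv])
  have h10 : ∀ g : Fin 3 → Fˣ, ∀ s, MulAut.conj (U.torus.τ g) (U.X 1 0 s) = U.X 1 0 (g 1 / g 0 * s) :=
    fun g s => by
      rw [U.X10, U.X10]
      exact U.conj_τ_base U.ker₂ (by simp [mul_comm, mul_left_comm, div_eq_mul_inv])
  have hrot : ∀ (a b : Fin 3), (∀ g : Fin 3 → Fˣ, g 0 * g 1 * g 2 = 1 → ∀ s,
        MulAut.conj (U.torus.τ g) (U.X a b s) = U.X a b (g a / g b * s)) →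
      ∀ g : Fin 3 → Fˣ, g 0 * g 1 * g 2 = 1 → ∀ s,
        MulAut.conj (U.torus.τ g) (U.X (a + 1) (b + 1) s) = U.X (a + 1) (b + 1) (g (a + 1) / g (b + 1) * s) := by
    intro a b hab g hg s
    set g' : Fin 3 → Fˣ := fun x => g (x + 1)
    have hg' : g' 0 * g' 1 * g' 2 = 1 := by
      show g 1 * g 2 * g 0 = 1
      rw [mul_comm, ← mul_assoc, hg]
    have e : U.torus.τ g = MulAut.conj S.c (U.torus.τ g') := by
      rw [U.torus.conj_τ hg']
      congr 1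
      funext x
      show g x = g (x + 2 + 1)
      rw [add_assoc, show (2 : Fin 3) + 1 = 0 from rfl, add_zero]
    rw [e, ← U.conj_c_X, ← MulAut.mul_apply, ← map_mul,
      show MulAut.conj S.c (U.torus.τ g') * S.c = S.c * U.torus.τ g' by
        rw [MulAut.conj_apply, inv_mul_cancel_right],
      map_mul, MulAut.mul_apply, hab g' hg' s, U.conj_c_X]
  have a01 := fun g (_ : g 0 * g 1 * g 2 = 1) s => h01 g s
  have a10 := fun g (_ : g 0 * g 1 * g 2 = 1) s => h10 g s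
  have a12 := hrot 0 1 a01
  have a20 := hrot (0 + 1) (1 + 1) a12
  have a21 := hrot 1 0 a10
  have a02 := hrot (1 + 1) (0 + 1) a21
  fin_cases i <;> fin_cases j
  · exact absurd rfl hij
  · exact a01 g hg s
  · exact a02 g hg s
  · exact a10 g hg s
  · exact absurd rfl hij
  · exact a12 g hg s
  · exact a20 g hg s
  · exact a21 g hg s
  · exact absurd rfl hij

theorem X_seed : U.X 0 1 1 = u := by
  rw [U.X01]
  have : (![1, 1, 1⁻¹] : Fin 3 → Fˣ) = 1 := by funext x; fin_cases x <;> simp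
  rw [this, map_one, map_one, MulAut.one_apply]

theorem X_seed_two : U.X 1 0 1 = U.v := by
  rw [U.X10]
  have : (![1, 1, 1⁻¹] : Fin 3 → Fˣ) = 1 := by funext x; fin_cases x <;> simp
  rw [this, map_one, map_one, MulAut.one_apply]

end RootSeed

end Cfsg.Agent.ShortPres.Three
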